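import Cfsg.Agent.H463.G2.Com
import Cfsg.Agent.H424.Spr.Two

/-!
# 3/2-generation from two representations (helper463, S3938, `G₂(3^a)`)

`spr_of_mods` : let `x₁ ∈ ⟨x⟩` generate a Sylow subgroup of the simple group `T` and let `M₁, M₂` be the stabilisers of
`[V₁, x₁]`, `[V₂, x₁]`. If every proper overgroup of `x` lies in `M₁` or `M₂` then `Spr T`.
-/

set_option autoImplicit false

namespace Cfsg.Agent.H463.G2

open Subgroup
open Cfsg.Agent.H424.Spr (Spr spr_of_two')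

open scoped Pointwise

variable {T : Type*} [Group T]

/-- if two stabilisers are conjugate and the Sylow subgroup `⟨x⟩` normalises to both, they are equal -/
theorem conj_eq [Finite T] {r : ℕ} [Fact r.Prime] {x : T} {R : Sylow r T} (hR : (R : Subgroup T) = zpowers x)
    {M₁ M₂ : Subgroup T} (h1 : ∀ g, g * x * g⁻¹ ∈ zpowers x → g ∈ M₁) (h2 : x ∈ M₂) {y : T}
    (hy : MulAut.conj y • M₁ = M₂) : M₁ = M₂ := by
  have hx1 : x ∈ M₁ := h1 x (by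
    rw [mul_inv_cancel_right]
    exact mem_zpowers x)
  have hle : (R : Subgroup T) ≤ M₁ := by
    rw [hR, zpowers_le]
    exact hx1
  have hle2 : ((y⁻¹ • R : Sylow r T) : Subgroup T) ≤ M₁ := by
    rw [Sylow.coe_subgroup_smul]
    intro t ht
    rw [Subgroup.mem_pointwise_smul_iff_inv_smul_mem] at ht
    have e1 : (MulAut.conj y⁻¹)⁻¹ • t = y * t * y⁻¹ := by
      rw [map_inv, inv_inv, MulAut.smul_def, MulAut.conj_apply]
    rw [e1, hR] at ht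
    have h3 : y * t * y⁻¹ ∈ M₂ := (zpowers_le.2 h2) ht
    rw [← hy, Subgroup.mem_pointwise_smul_iff_inv_smul_mem] at h3
    have e2 : (MulAut.conj y)⁻¹ • (y * t * y⁻¹) = t := by
      rw [← map_inv, MulAut.smul_def, MulAut.conj_apply]
      group
    rwa [e2] at h3
  obtain ⟨m, hm⟩ := MulAction.exists_smul_eq ↥M₁ (R.subtype hle) ((y⁻¹ • R).subtype hle2)
  have h4 : (m : T) * x * (m : T)⁻¹ ∈ ((y⁻¹ • R : Sylow r T) : Subgroup T) := by
    have h5 : m * ⟨x, hx1⟩ * m⁻¹ ∈ (((y⁻¹ • R).subtype hle2 : Sylow r ↥M₁) : Subgroup ↥M₁) := by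
      rw [← hm, Sylow.coe_subgroup_smul, Subgroup.mem_pointwise_smul_iff_inv_smul_mem]
      have e3 : (MulAut.conj m)⁻¹ • (m * ⟨x, hx1⟩ * m⁻¹ : ↥M₁) = ⟨x, hx1⟩ := by
        rw [← map_inv, MulAut.smul_def, MulAut.conj_apply]
        group
      rw [e3]
      change x ∈ (R : Subgroup T)
      rw [hR]
      exact mem_zpowers x
    exact h5
  rw [Sylow.coe_subgroup_smul, Subgroup.mem_pointwise_smul_iff_inv_smul_mem] at h4
  have e4 : (MulAut.conj y⁻¹)⁻¹ • ((m : T) * x * (m : T)⁻¹) = (y * m) * x * (y * m)⁻¹ := by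
    rw [map_inv, inv_inv, MulAut.smul_def, MulAut.conj_apply]
    group
  rw [e4, hR] at h4
  have h5 : y ∈ M₁ := by
    have h6 := M₁.mul_mem (h1 _ h4) (M₁.inv_mem m.2)
    rwa [mul_inv_cancel_right] at h6
  rw [← hy]
  ext t
  rw [Subgroup.mem_pointwise_smul_iff_inv_smul_mem, ← map_inv, MulAut.smul_def, MulAut.conj_apply, inv_inv]
  constructor
  · intro ht
    exact M₁.mul_mem (M₁.mul_mem (M₁.inv_mem h5) ht) h5
  · intro ht
    have h6 := M₁.mul_mem (M₁.mul_mem h5 ht) (M₁.inv_mem h5)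
    have e5 : y * (y⁻¹ * t * y) * y⁻¹ = t := by group
    rwa [e5] at h6

variable {F₁ F₂ V₁ V₂ : Type*} [Field F₁] [Field F₂] [AddCommGroup V₁] [AddCommGroup V₂] [Module F₁ V₁]
  [Module F₂ V₂] [FiniteDimensional F₁ V₁] [FiniteDimensional F₂ V₂]

theorem spr_of_mods [IsSimpleGroup T] [Finite T] (hna : ∃ x y : T, x * y ≠ y * x) (ρ₁ : T →* (V₁ →ₗ[F₁] V₁))
    (ρ₂ : T →* (V₂ →ₗ[F₂] V₂)) {r : ℕ} [Fact r.Prime] {x x₁ : T} {R : Sylow r T}
    (hR : (R : Subgroup T) = zpowers x₁) (h1 : St ρ₁ (br ρ₁ x₁) ≠ ⊤) (h2 : St ρ₂ (br ρ₂ x₁) ≠ ⊤)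
    (h : ∀ K : Subgroup T, x ∈ K → K ≠ ⊤ → K ≤ St ρ₁ (br ρ₁ x₁) ∨ K ≤ St ρ₂ (br ρ₂ x₁)) : Spr T := by
  refine spr_of_two' hna h1 h2 ?_ h
  intro y hy
  refine conj_eq hR (fun g hg => mem_St_of_conj ρ₁ hg) ?_ hy
  refine mem_St_of_conj ρ₂ ?_
  rw [mul_inv_cancel_right]
  exact mem_zpowers x₁

/-- the normaliser of `⟨x⟩` normalises `⟨x₁⟩`, `x₁ ∈ ⟨x⟩` -/
theorem conj_mem_of_norm {x x₁ g : T} (hx : x₁ ∈ zpowers x) (hg : g ∈ Subgroup.normalizer (zpowers x : Set T)) :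
    g * x₁ * g⁻¹ ∈ zpowers x₁ := by
  obtain ⟨m, rfl⟩ := mem_zpowers_iff.1 hx
  have h1 : g * x * g⁻¹ ∈ zpowers x := (Subgroup.mem_normalizer_iff.1 hg x).1 (mem_zpowers x)
  obtain ⟨j, hj⟩ := mem_zpowers_iff.1 h1
  have h2 : g * x ^ m * g⁻¹ = (x ^ m) ^ j := by
    calc g * x ^ m * g⁻¹ = (g * x * g⁻¹) ^ m := by rw [conj_zpow]
      _ = (x ^ j) ^ m := by rw [hj]
      _ = (x ^ m) ^ j := by rw [← zpow_mul, ← zpow_mul, mul_comm]
  rw [h2]
  exact zpow_mem (mem_zpowers _) j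

end Cfsg.Agent.H463.G2
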