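import Cfsg.Agent.H556.SLInv

/-!
# `SL₂(q)` in `(SL₂(q) ∘ SL₂(q)).2` (helper463, S3938)

`Pair.factor` : a homomorphic image of `SL₂(F₀)`, `|F₀| > 3`, in `P.K` commuting with an element `y ∈ P.K`, `y ^ 4 ≠ 1`,
lies in one of the two factors.
-/

set_option autoImplicit false

namespace Cfsg.Agent.H463.G2

open Matrix
open Cfsg.Agent.GTwoOdd (M2 SL2 m2_ext sl2_ext m2_mul_00 m2_mul_01 m2_mul_10 m2_mul_11)
open Cfsg.Agent.ChevalleyStructure.SL2Hom (up lo mem_closure_SL2)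
open Cfsg.Agent.ClassificationK.GTwoSL (delta coe_delta)
open Cfsg.Agent.H556.SLPair

variable {F : Type*} [Field F] {Γ : Type*} [Group Γ]

theorem comm_iff {v w : SL2 F} : v * w = w * v ↔
    (v : M2 F) 0 1 * (w : M2 F) 1 0 = (w : M2 F) 0 1 * (v : M2 F) 1 0 ∧
    (w : M2 F) 0 1 * ((v : M2 F) 0 0 - (v : M2 F) 1 1) = (v : M2 F) 0 1 * ((w : M2 F) 0 0 - (w : M2 F) 1 1) ∧
    (w : M2 F) 1 0 * ((v : M2 F) 0 0 - (v : M2 F) 1 1) = (v : M2 F) 1 0 * ((w : M2 F) 0 0 - (w : M2 F) 1 1) := by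
  constructor
  · intro h
    have h' : (v : M2 F) * (w : M2 F) = (w : M2 F) * (v : M2 F) := congrArg Subtype.val h
    have e00 := congrFun (congrFun h' 0) 0
    have e01 := congrFun (congrFun h' 0) 1
    have e10 := congrFun (congrFun h' 1) 0
    rw [m2_mul_00, m2_mul_00] at e00
    rw [m2_mul_01, m2_mul_01] at e01
    rw [m2_mul_10, m2_mul_10] at e10
    exact ⟨by linear_combination e00, by linear_combination e01, by linear_combination -e10⟩
  · rintro ⟨h1, h2, h3⟩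
    apply Subtype.ext
    change (v : M2 F) * (w : M2 F) = (w : M2 F) * (v : M2 F)
    apply m2_ext
    · rw [m2_mul_00, m2_mul_00]; linear_combination h1
    · rw [m2_mul_01, m2_mul_01]; linear_combination h2
    · rw [m2_mul_10, m2_mul_10]; linear_combination -h3
    · rw [m2_mul_11, m2_mul_11]; linear_combination -h1

theorem comm_of_comm {c v w : SL2 F} (hc : ∃ x : SL2 F, c * x ≠ x * c) (h1 : v * c = c * v) (h2 : w * c = c * w) :
    v * w = w * v := by
  obtain ⟨x, hx⟩ := hc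
  rw [Ne, comm_iff] at hx
  rw [comm_iff] at h1 h2 ⊢
  obtain ⟨a1, a2, a3⟩ := h1
  obtain ⟨b1, b2, b3⟩ := h2
  by_cases hq : (c : M2 F) 0 1 = 0
  · by_cases hr : (c : M2 F) 1 0 = 0
    · have hd : (c : M2 F) 0 0 - (c : M2 F) 1 1 ≠ 0 := by
        intro hd
        apply hx
        rw [hq, hr, hd]
        simp
      rw [hq, zero_mul] at a2 b2
      rw [hr, zero_mul] at a3 b3
      have v1 := (mul_eq_zero.1 a2.symm).resolve_right hd
      have w1 := (mul_eq_zero.1 b2.symm).resolve_right hd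
      have v2 := (mul_eq_zero.1 a3.symm).resolve_right hd
      have w2 := (mul_eq_zero.1 b3.symm).resolve_right hd
      rw [v1, w1, v2, w2]
      simp
    · rw [hq, zero_mul] at a1 b1
      have v1 := (mul_eq_zero.1 a1).resolve_right hr
      have w1 := (mul_eq_zero.1 b1).resolve_right hr
      rw [v1, w1]
      refine ⟨by ring, by ring, ?_⟩
      apply mul_left_cancel₀ hr
      linear_combination (w : M2 F) 1 0 * a3 - (v : M2 F) 1 0 * b3
  · refine ⟨?_, ?_, ?_⟩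
    · apply mul_left_cancel₀ hq
      linear_combination (v : M2 F) 0 1 * (-b1) + (w : M2 F) 0 1 * a1
    · apply mul_left_cancel₀ hq
      linear_combination (w : M2 F) 0 1 * a2 - (v : M2 F) 0 1 * b2
    · apply mul_left_cancel₀ hq
      apply mul_left_cancel₀ hq
      linear_combination (c : M2 F) 0 1 * (w : M2 F) 1 0 * a2 - (c : M2 F) 0 1 * (v : M2 F) 1 0 * b2 -
        ((c : M2 F) 0 0 - (c : M2 F) 1 1) * (v : M2 F) 0 1 * b1 +
        ((c : M2 F) 0 0 - (c : M2 F) 1 1) * (w : M2 F) 0 1 * a1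

section factor

variable {F₀ : Type*} [Field F₀] (P : Pair F Γ)

theorem sq_mem_L {x : Γ} (hx : x ∈ P.K) : x ^ 2 ∈ P.L := by
  have h2 : (P.L.subgroupOf P.K).index = 2 := P.relIndex_LK
  have h1 := Subgroup.sq_mem_of_index_two h2 (⟨x, hx⟩ : P.K)
  rw [Subgroup.mem_subgroupOf] at h1
  exact h1

/-- fourth powers are everything: the image lies in `L`, with the components commuting with those of `φ b * ψ c` -/
theorem comp (h2 : (2 : F₀) ≠ 0) (α : SL2 F₀ →* Γ) (hα : ∀ a, α a ∈ P.K) {b c : SL2 F}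
    (hy : ∀ a, α a * (P.φ b * P.ψ c) = P.φ b * P.ψ c * α a) (a : SL2 F₀) :
    ∃ u v : SL2 F, α a = P.φ u * P.ψ v ∧ u * b = b * u ∧ v * c = c * v := by
  have key : ∀ s : SL2 F₀, ∃ u v : SL2 F, α (s * s * (s * s)) = P.φ u * P.ψ v ∧ u * b = b * u ∧ v * c = c * v := by
    intro s
    obtain ⟨u, v, huv⟩ := P.mem_L.1 (sq_mem_L P (hα s))
    have h3 : P.φ u * P.ψ v * (P.φ b * P.ψ c) = P.φ b * P.ψ c * (P.φ u * P.ψ v) := by
      rw [← huv, ← map_pow]
      exact hy _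
    rw [P.mul_form, P.mul_form, P.form_eq_iff] at h3
    refine ⟨u * u, v * v, ?_, ?_, ?_⟩
    · rw [← P.mul_form, ← huv, ← map_pow, ← map_mul, pow_two]
    · rcases h3 with ⟨h4, -⟩ | ⟨h4, -⟩
      · rw [mul_assoc, h4, ← mul_assoc, h4, mul_assoc]
      · rw [mul_assoc, h4, mul_neg, ← mul_assoc, h4, neg_mul, neg_neg, mul_assoc]
    · rcases h3 with ⟨-, h4⟩ | ⟨-, h4⟩
      · rw [mul_assoc, h4, ← mul_assoc, h4, mul_assoc]
      · rw [mul_assoc, h4, mul_neg, ← mul_assoc, h4, neg_mul, neg_neg, mul_assoc]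
  have h4 : (4 : F₀) ≠ 0 := by
    have : (4 : F₀) = 2 * 2 := by norm_num
    rw [this]; exact mul_ne_zero h2 h2
  refine Subgroup.closure_induction (p := fun a _ => ∃ u v : SL2 F, α a = P.φ u * P.ψ v ∧ u * b = b * u ∧ v * c = c * v)
    ?_ ?_ ?_ ?_ (mem_closure_SL2 a)
  · rintro _ (⟨t, rfl⟩ | ⟨t, rfl⟩)
    · have h5 := key (up (t / 4))
      rw [up_mul_up, up_mul_up] at h5
      have e : t / 4 + t / 4 + (t / 4 + t / 4) = t := by field_simp; ring
      rwa [e] at h5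
    · have h5 := key (lo (t / 4))
      have hl : ∀ s t : F₀, lo s * lo t = lo (s + t) := by
        intro s t
        apply Cfsg.Agent.GTwoOdd.sl2_ext <;> simp [coe_lo, Matrix.mul_apply, Fin.sum_univ_two]
      rw [hl, hl] at h5
      have e : t / 4 + t / 4 + (t / 4 + t / 4) = t := by field_simp; ring
      rwa [e] at h5
  · exact ⟨1, 1, by simp, by simp, by simp⟩
  · rintro x y _ _ ⟨u, v, h5, h6, h7⟩ ⟨u', v', h8, h9, h10⟩
    refine ⟨u * u', v * v', ?_, ?_, ?_⟩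
    · rw [map_mul, h5, h8, P.mul_form]
    · rw [mul_assoc, h9, ← mul_assoc, h6, mul_assoc]
    · rw [mul_assoc, h10, ← mul_assoc, h7, mul_assoc]
  · rintro x _ ⟨u, v, h5, h6, h7⟩
    refine ⟨u⁻¹, v⁻¹, ?_, ?_, ?_⟩
    · rw [map_inv, h5, P.inv_form]
    · rw [inv_mul_eq_iff_eq_mul, ← mul_assoc, h6, mul_inv_cancel_right]
    · rw [inv_mul_eq_iff_eq_mul, ← mul_assoc, h7, mul_inv_cancel_right]

open scoped commutatorElement in
/-- `up t` is a commutator -/
theorem up_comm {s : F₀} (hs : s ≠ 0) (hs2 : s ^ 2 ≠ 1) (t : F₀) : ⁅dg s hs, up (t / (s ^ 2 - 1))⁆ = up t := by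
  have h1 : s ^ 2 - 1 ≠ 0 := sub_ne_zero.2 hs2
  rw [commutatorElement_def, dg_up, mul_inv_cancel_right, up_inv, up_mul_up]
  congr 1
  field_simp
  ring

theorem lo_mul_lo (s t : F₀) : lo s * lo t = lo (s + t) := by
  apply Cfsg.Agent.GTwoOdd.sl2_ext <;> simp [coe_lo, Matrix.mul_apply, Fin.sum_univ_two]

theorem lo_inv (s : F₀) : (lo s)⁻¹ = lo (-s) :=
  inv_eq_of_mul_eq_one_right (by rw [lo_mul_lo, add_neg_cancel, lo_zero])

theorem dg_lo (a : F₀) (ha : a ≠ 0) (s : F₀) : dg a ha * lo s = lo ((a ^ 2)⁻¹ * s) * dg a ha := by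
  apply Cfsg.Agent.GTwoOdd.sl2_ext <;> simp [coe_lo, coe_dg, Matrix.mul_apply, Fin.sum_univ_two]
  field_simp

open scoped commutatorElement in
/-- `lo t` is a commutator -/
theorem lo_comm {s : F₀} (hs : s ≠ 0) (hs2 : s ^ 2 ≠ 1) (t : F₀) :
    ⁅dg s hs, lo (t / ((s ^ 2)⁻¹ - 1))⁆ = lo t := by
  have h1 : (s ^ 2)⁻¹ - 1 ≠ 0 := by
    intro h
    apply hs2
    rw [← inv_inv (s ^ 2), sub_eq_zero.1 h, inv_one]
  rw [commutatorElement_def, dg_lo, mul_inv_cancel_right, lo_inv, lo_mul_lo]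
  congr 1
  rw [← sub_eq_add_neg, ← sub_one_mul, mul_div_cancel₀ _ h1]

open scoped commutatorElement in
/-- a subgroup containing all commutators is everything -/
theorem mem_of_comm (hs : ∃ s : F₀, s ≠ 0 ∧ s ^ 2 ≠ 1) {H : Subgroup (SL2 F₀)} (h : ∀ a b : SL2 F₀, ⁅a, b⁆ ∈ H)
    (g : SL2 F₀) : g ∈ H := by
  obtain ⟨s, hs0, hs2⟩ := hs
  refine Subgroup.closure_induction (p := fun g _ => g ∈ H) ?_ H.one_mem (fun _ _ _ _ => H.mul_mem)
    (fun _ _ => H.inv_mem) (mem_closure_SL2 g)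
  rintro _ (⟨t, rfl⟩ | ⟨t, rfl⟩)
  · rw [← up_comm hs0 hs2 t]
    exact h _ _
  · rw [← lo_comm hs0 hs2 t]
    exact h _ _

open scoped commutatorElement in
/-- **The image lies in one of the two factors.** -/
theorem factor (h2 : (2 : F₀) ≠ 0) (hs : ∃ s : F₀, s ≠ 0 ∧ s ^ 2 ≠ 1) (α : SL2 F₀ →* Γ) (hα : ∀ a, α a ∈ P.K) {y : Γ}
    (hy : y ∈ P.K) (hya : ∀ a, α a * y = y * α a) (hy4 : y ^ 4 ≠ 1) :
    (∀ a, α a ∈ P.φ.range) ∨ (∀ a, α a ∈ P.ψ.range) := by
  obtain ⟨b, c, hbc⟩ := P.mem_L.1 (sq_mem_L P hy)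
  have hcomm : ∀ a, α a * (P.φ b * P.ψ c) = P.φ b * P.ψ c * α a := by
    intro a
    rw [← hbc, pow_two, ← mul_assoc, hya, mul_assoc, hya, mul_assoc]
  have hco := comp P h2 α hα hcomm
  by_cases hc : ∃ x : SL2 F, c * x ≠ x * c
  · left
    intro a
    refine mem_of_comm (H := P.φ.range.comap α) hs (fun x x' => ?_) a
    obtain ⟨u, v, e1, -, h3⟩ := hco x
    obtain ⟨u', v', e2, -, h4⟩ := hco x'
    have h5 := comm_of_comm hc h3 h4
    refine ⟨⁅u, u'⁆, ?_⟩
    rw [map_commutatorElement, map_commutatorElement, e1, e2, commutatorElement_def, commutatorElement_def, P.inv_form,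
      P.inv_form, P.mul_form, P.mul_form, P.mul_form, h5, mul_inv_cancel_right, mul_inv_cancel, map_one, mul_one]
    simp only [map_mul, map_inv]
  · by_cases hb : ∃ x : SL2 F, b * x ≠ x * b
    · right
      intro a
      refine mem_of_comm (H := P.ψ.range.comap α) hs (fun x x' => ?_) a
      obtain ⟨u, v, e1, h3, -⟩ := hco x
      obtain ⟨u', v', e2, h4, -⟩ := hco x'
      have h5 := comm_of_comm hb h3 h4
      refine ⟨⁅v, v'⁆, ?_⟩
      rw [map_commutatorElement, map_commutatorElement, e1, e2, commutatorElement_def, commutatorElement_def, P.inv_form,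
        P.inv_form, P.mul_form, P.mul_form, P.mul_form, h5, mul_inv_cancel_right, mul_inv_cancel, map_one, one_mul]
      simp only [map_mul, map_inv]
    · exfalso
      push Not at hb hc
      apply hy4
      have e : y ^ 4 = (P.φ b * P.ψ c) * (P.φ b * P.ψ c) := by rw [← hbc]; group
      rw [e, P.mul_form]
      have hb2 : b * b = 1 := by
        rcases eq_of_comm hb with h | h <;> rw [h] <;> simp
      have hc2 : c * c = 1 := by
        rcases eq_of_comm hc with h | h <;> rw [h] <;> simp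
      rw [hb2, hc2, map_one, map_one, mul_one]

end factor

end Cfsg.Agent.H463.G2
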