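import Mathlib

/-!
# The commutator space `[V, g]` of a linear representation (helper463, S3938, `G₂(3^a)`)

`br ρ g` : the range of `ρ g - 1`.
`norm_le` : if `S` contains `x` and all `[V, s]`, `s ∈ S`, lie in a space of dimension at most `dim [V, x]`, then the
normaliser of `S` stabilises `[V, x]`.
`finrank_br` : `dim [V, x] = 6` for an `r`-element `x` acting nontrivially on a 7-dimensional space over `F`, where
`r ∣ q ^ k - 1` happens for `1 ≤ k ≤ 7` only if `k = 6`.
`St_ne_top` : a perfect group without trivial quotient on `V` stabilises no hyperplane.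
-/

set_option autoImplicit false

namespace Cfsg.Agent.H463.G2

open Subgroup
open scoped commutatorElement

section com

variable {T : Type*} [Group T] {F : Type*} [Field F] {V : Type*} [AddCommGroup V] [Module F V]

/-- `[V, g]` -/
def br (ρ : T →* (V →ₗ[F] V)) (g : T) : Submodule F V := LinearMap.range (ρ g - 1)

theorem mem_br (ρ : T →* (V →ₗ[F] V)) (g : T) (v : V) : ρ g v - v ∈ br ρ g := ⟨v, by simp⟩

theorem br_le_iff {ρ : T →* (V →ₗ[F] V)} {g : T} {U : Submodule F V} :
    br ρ g ≤ U ↔ ∀ v, ρ g v - v ∈ U := by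
  constructor
  · intro h v
    exact h (mem_br ρ g v)
  · rintro h _ ⟨v, rfl⟩
    simpa using h v

/-- the elements with `[V, g] ≤ U` -/
def KU (ρ : T →* (V →ₗ[F] V)) (U : Submodule F V) : Subgroup T where
  carrier := {g | br ρ g ≤ U}
  one_mem' := by
    change br ρ 1 ≤ U
    rw [br_le_iff]
    intro v
    rw [map_one, Module.End.one_apply, sub_self]
    exact U.zero_mem
  mul_mem' := by
    intro g h hg hh
    change br ρ (g * h) ≤ U
    replace hg := br_le_iff.1 (show br ρ g ≤ U from hg)
    replace hh := br_le_iff.1 (show br ρ h ≤ U from hh)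
    rw [br_le_iff]
    intro v
    have h1 : ρ (g * h) v - v = (ρ g (ρ h v) - ρ h v) + (ρ h v - v) := by
      rw [map_mul, Module.End.mul_apply]
      abel
    rw [h1]
    exact U.add_mem (hg _) (hh _)
  inv_mem' := by
    intro g hg
    change br ρ g⁻¹ ≤ U
    replace hg := br_le_iff.1 (show br ρ g ≤ U from hg)
    rw [br_le_iff]
    intro v
    have h1 : ρ g (ρ g⁻¹ v) = v := by
      rw [← Module.End.mul_apply, ← map_mul, mul_inv_cancel, map_one, Module.End.one_apply]
    have h2 : ρ g⁻¹ v - v = - (ρ g (ρ g⁻¹ v) - ρ g⁻¹ v) := by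
      rw [h1]
      abel
    rw [h2]
    exact U.neg_mem (hg _)

theorem mem_KU {ρ : T →* (V →ₗ[F] V)} {U : Submodule F V} {g : T} : g ∈ KU ρ U ↔ br ρ g ≤ U := Iff.rfl

theorem br_zpow_le (ρ : T →* (V →ₗ[F] V)) {g h : T} (hh : h ∈ zpowers g) : br ρ h ≤ br ρ g := by
  have h1 : zpowers g ≤ KU ρ (br ρ g) := by
    rw [zpowers_le]
    exact le_refl (br ρ g)
  exact h1 hh

theorem br_conj (ρ : T →* (V →ₗ[F] V)) (g h : T) : br ρ (g * h * g⁻¹) = (br ρ h).map (ρ g) := by
  apply le_antisymm
  · rw [br_le_iff]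
    intro v
    refine ⟨ρ h (ρ g⁻¹ v) - ρ g⁻¹ v, mem_br ρ h _, ?_⟩
    have h1 : ρ g (ρ g⁻¹ v) = v := by
      rw [← Module.End.mul_apply, ← map_mul, mul_inv_cancel, map_one, Module.End.one_apply]
    rw [map_sub, h1, map_mul, map_mul, Module.End.mul_apply, Module.End.mul_apply]
  · rintro _ ⟨_, ⟨v, rfl⟩, rfl⟩
    refine ⟨ρ g v, ?_⟩
    have h1 : ρ g⁻¹ (ρ g v) = v := by
      rw [← Module.End.mul_apply, ← map_mul, inv_mul_cancel, map_one, Module.End.one_apply]
    rw [LinearMap.sub_apply, LinearMap.sub_apply, Module.End.one_apply, Module.End.one_apply, map_sub, map_mul, map_mul,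
      Module.End.mul_apply, Module.End.mul_apply, h1]

/-- the stabiliser of a subspace -/
def St (ρ : T →* (V →ₗ[F] V)) (U : Submodule F V) : Subgroup T where
  carrier := {g | U.map (ρ g) = U}
  one_mem' := by
    change U.map (ρ 1) = U
    rw [map_one]
    exact Submodule.map_id U
  mul_mem' := by
    intro g h hg hh
    change U.map (ρ (g * h)) = U
    rw [map_mul]
    change U.map ((ρ g).comp (ρ h)) = U
    rw [Submodule.map_comp]
    rw [show U.map (ρ h) = U from hh, show U.map (ρ g) = U from hg]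
  inv_mem' := by
    intro g hg
    change U.map (ρ g⁻¹) = U
    have h1 : (U.map (ρ g)).map (ρ g⁻¹) = U := by
      rw [← Submodule.map_comp]
      change U.map (ρ g⁻¹ * ρ g) = U
      rw [← map_mul, inv_mul_cancel, map_one]
      exact Submodule.map_id U
    rw [show U.map (ρ g) = U from hg] at h1
    exact h1

theorem mem_St {ρ : T →* (V →ₗ[F] V)} {U : Submodule F V} {g : T} : g ∈ St ρ U ↔ U.map (ρ g) = U := Iff.rfl

theorem ρ_injective (ρ : T →* (V →ₗ[F] V)) (g : T) : Function.Injective (ρ g) := by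
  intro v w h
  have h1 : ∀ u, ρ g⁻¹ (ρ g u) = u := by
    intro u
    rw [← Module.End.mul_apply, ← map_mul, inv_mul_cancel, map_one, Module.End.one_apply]
  rw [← h1 v, h, h1]

variable [FiniteDimensional F V]

theorem mem_St_of_le {ρ : T →* (V →ₗ[F] V)} {U : Submodule F V} {g : T} (h : U.map (ρ g) ≤ U) : g ∈ St ρ U := by
  refine mem_St.2 (Submodule.eq_of_le_of_finrank_eq h ?_)
  exact LinearEquiv.finrank_map_eq (LinearEquiv.ofInjectiveEndo (ρ g) (ρ_injective ρ g)) U

/-- the normaliser of `⟨x⟩` stabilises `[V, x]` -/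
theorem mem_St_of_conj (ρ : T →* (V →ₗ[F] V)) {x g : T} (h : g * x * g⁻¹ ∈ zpowers x) : g ∈ St ρ (br ρ x) := by
  apply mem_St_of_le
  rw [← br_conj]
  exact br_zpow_le ρ h

/-- the normaliser of `S` stabilises `[V, S] = [V, x]` -/
theorem norm_le (ρ : T →* (V →ₗ[F] V)) {x : T} {S : Subgroup T} (hx : x ∈ S) {U : Submodule F V}
    (hU : S ≤ KU ρ U) (hd : Module.finrank F U ≤ Module.finrank F (br ρ x)) {g : T}
    (hg : ∀ s ∈ S, g * s * g⁻¹ ∈ S) : g ∈ St ρ (br ρ x) := by
  have h1 : br ρ x = U := Submodule.eq_of_le_of_finrank_le (hU hx) hd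
  apply mem_St_of_le
  rw [← br_conj]
  rw [h1]
  exact hU (hg x hx)

end com

section proper

variable {T : Type*} [Group T] [IsSimpleGroup T] {F : Type*} [Field F] {V : Type*} [AddCommGroup V] [Module F V]
  [FiniteDimensional F V]

/-- a simple nonabelian group has no nontrivial homomorphism to a commutative monoid -/
theorem hom_comm_trivial (hna : ∃ x y : T, x * y ≠ y * x) {A : Type*} [CommMonoid A] (f : T →* A) (g : T) : f g = 1 := by
  have h1 : commutator T = ⊤ := by
    rcases (inferInstance : (commutator T).Normal).eq_bot_or_eq_top with h | h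
    · exfalso
      obtain ⟨x, y, hxy⟩ := hna
      apply hxy
      have h2 : ⁅x, y⁆ ∈ commutator T := Subgroup.commutator_mem_commutator (mem_top x) (mem_top y)
      rw [h, mem_bot, commutatorElement_eq_one_iff_mul_comm] at h2
      exact h2
    · exact h
  have h2 : commutator T ≤ f.toHomUnits.ker := Abelianization.commutator_subset_ker _
  rw [h1] at h2
  have h3 : f.toHomUnits g = 1 := h2 (mem_top g)
  have h4 := congrArg Units.val h3
  simpa using h4

/-- a simple nonabelian group with `[V, T] = V` stabilises no hyperplane -/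
theorem St_ne_top (hna : ∃ x y : T, x * y ≠ y * x) (ρ : T →* (V →ₗ[F] V))
    (hV : ∀ U : Submodule F V, (∀ g, br ρ g ≤ U) → U = ⊤) {U : Submodule F V}
    (hd : Module.finrank F U + 1 = Module.finrank F V) : St ρ U ≠ ⊤ := by
  intro htop
  have hinv : ∀ g v, v ∈ U → ρ g v ∈ U := by
    intro g v hv
    have h1 : g ∈ St ρ U := by rw [htop]; exact mem_top g
    rw [← mem_St.1 h1]
    exact Submodule.mem_map_of_mem hv
  -- a linear form with kernel `U`
  have h1 : Module.finrank F (V ⧸ U) = 1 := by
    have := Submodule.finrank_quotient_add_finrank U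
    omega
  obtain ⟨e⟩ : Nonempty ((V ⧸ U) ≃ₗ[F] F) := by
    rw [FiniteDimensional.nonempty_linearEquiv_iff_finrank_eq, h1, Module.finrank_self]
  set φ : V →ₗ[F] F := e.toLinearMap.comp U.mkQ with hφ
  have hker : ∀ v, φ v = 0 ↔ v ∈ U := by
    intro v
    rw [hφ, LinearMap.comp_apply]
    change e (U.mkQ v) = 0 ↔ _
    rw [LinearEquiv.map_eq_zero_iff, Submodule.mkQ_apply, Submodule.Quotient.mk_eq_zero]
  obtain ⟨v₀, hv₀⟩ : ∃ v₀, φ v₀ = 1 := by
    obtain ⟨w, hw⟩ := U.mkQ_surjective (e.symm 1)
    refine ⟨w, ?_⟩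
    rw [hφ, LinearMap.comp_apply, hw]
    exact e.apply_symm_apply 1
  have hφg : ∀ g v, φ (ρ g v) = φ (ρ g v₀) * φ v := by
    intro g v
    have h2 : v - φ v • v₀ ∈ U := by
      rw [← hker, map_sub, map_smul, hv₀, smul_eq_mul, mul_one, sub_self]
    have h3 := hinv g _ h2
    rw [← hker, map_sub, map_sub, map_smul, map_smul, smul_eq_mul, sub_eq_zero] at h3
    rw [h3, mul_comm]
  let χ : T →* F :=
    { toFun := fun g => φ (ρ g v₀)
      map_one' := by rw [map_one, Module.End.one_apply, hv₀]
      map_mul' := fun g h => by rw [map_mul, Module.End.mul_apply, hφg g (ρ h v₀)] }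
  have hχ : ∀ g, φ (ρ g v₀) = 1 := fun g => hom_comm_trivial hna χ g
  have h2 := hV U fun g => by
    rw [br_le_iff]
    intro v
    rw [← hker, map_sub, hφg, hχ, one_mul, sub_self]
  rw [h2, finrank_top] at hd
  omega

end proper

section count

variable {T : Type*} [Group T] {F : Type*} [Field F] [Finite F] {V : Type*} [AddCommGroup V] [Module F V]
  [FiniteDimensional F V]

theorem finrank_br (ρ : T →* (V →ₗ[F] V)) (hV : Module.finrank F V = 7) {r k : ℕ} [hr : Fact r.Prime] {x : T}
    (hx : x ^ r ^ k = 1) (hρ : ρ x ≠ 1) (hq : ∀ j, j ≤ 7 → r ∣ Nat.card F ^ j - 1 → j = 0 ∨ j = 6)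
    (hrq : ¬ r ∣ Nat.card F) : Module.finrank F (br ρ x) = 6 := by
  classical
  set q := Nat.card F with hqdef
  have hq1 : 1 < q := Finite.one_lt_card
  set C : Submodule F V := LinearMap.ker (ρ x - 1) with hC
  have hrank : Module.finrank F (br ρ x) + Module.finrank F C = 7 := by
    rw [← hV]
    exact LinearMap.finrank_range_add_finrank_ker (ρ x - 1)
  have hmemC : ∀ v, v ∈ C ↔ ρ x v = v := by
    intro v
    rw [hC, LinearMap.mem_ker, LinearMap.sub_apply, Module.End.one_apply, sub_eq_zero]
  have hfinV : Finite V := Module.finite_of_finite F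
  -- the action of `⟨x⟩`
  let act : MulAction (zpowers x) V := MulAction.compHom V (ρ.comp (zpowers x).subtype)
  have hsmul : ∀ (g : zpowers x) (v : V), act.toSMul.smul g v = ρ g v := fun _ _ => rfl
  have hp : IsPGroup r (zpowers x) := by
    rintro ⟨g, hg⟩
    obtain ⟨n, rfl⟩ := mem_zpowers_iff.1 hg
    refine ⟨k, Subtype.ext ?_⟩
    change (x ^ n) ^ r ^ k = 1
    rw [← zpow_natCast, zpow_comm, zpow_natCast, hx, one_zpow]
  have hmod := hp.card_modEq_card_fixedPoints V
  have hfix : MulAction.fixedPoints (zpowers x) V = (C : Set V) := by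
    ext v
    constructor
    · intro h
      exact (hmemC v).2 (h ⟨x, mem_zpowers x⟩)
    · intro h g
      have h1 : ρ x v = v := (hmemC v).1 h
      obtain ⟨g, hg⟩ := g
      obtain ⟨n, rfl⟩ := mem_zpowers_iff.1 hg
      let Z : Subgroup T :=
        { carrier := {t | ρ t v = v}
          one_mem' := by change ρ 1 v = v; rw [map_one, Module.End.one_apply]
          mul_mem' := fun {a b} ha hb => by
            change ρ (a * b) v = v
            rw [map_mul, Module.End.mul_apply, show ρ b v = v from hb, show ρ a v = v from ha]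
          inv_mem' := fun {a} ha => by
            change ρ a⁻¹ v = v
            have h5 := congrArg (ρ a⁻¹) (show ρ a v = v from ha)
            rw [← Module.End.mul_apply, ← map_mul, inv_mul_cancel, map_one, Module.End.one_apply] at h5
            exact h5.symm }
      have h3 : zpowers x ≤ Z := by
        rw [zpowers_le]
        exact h1
      exact h3 (zpow_mem (mem_zpowers x) n)
  have hcardV : Nat.card V = q ^ 7 := by
    rw [Module.natCard_eq_pow_finrank (K := F) (V := V), hV]
  have hcardC : Nat.card (MulAction.fixedPoints (zpowers x) V) = q ^ Module.finrank F C := by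
    rw [hfix]
    exact Module.natCard_eq_pow_finrank (K := F) (V := C)
  rw [hcardC, hcardV] at hmod
  set d := Module.finrank F C with hd
  have hd7 : d ≤ 7 := by omega
  have h1 : r ∣ q ^ 7 - q ^ d := (Nat.modEq_iff_dvd' (Nat.pow_le_pow_right (by omega) hd7)).1 hmod.symm
  have h2 : q ^ 7 - q ^ d = q ^ d * (q ^ (7 - d) - 1) := by
    rw [Nat.mul_sub, ← pow_add, mul_one]
    congr 2
    omega
  rw [h2] at h1
  have h3 : r ∣ q ^ (7 - d) - 1 := by
    rcases (Nat.Prime.dvd_mul hr.out).1 h1 with h | h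
    · exact absurd (hr.out.dvd_of_dvd_pow h) hrq
    · exact h
  rcases hq (7 - d) (by omega) h3 with h | h
  · exfalso
    apply hρ
    have h4 : C = ⊤ := Submodule.eq_top_of_finrank_eq (by omega)
    ext v
    rw [Module.End.one_apply]
    exact (hmemC v).1 (by rw [h4]; exact Submodule.mem_top)
  · omega

end count

end Cfsg.Agent.H463.G2
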