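import Cfsg.Agent.H212.U3.Model
import Cfsg.Agent.H556.SLPair

/-!
# Three root groups generate `SU₃(q)`, `q` odd (helper463, S3938)

`SUG σ` : the matrix model (antidiagonal form).  `al` : the embedding of `SL₂` of the fixed field.
`gen3` : a subgroup containing the image of `al` and the conjugate by `emb (1, 1/2)` contains the unipotent group
`emb σ` and the antidiagonal element of `al`; hence all its conjugates.
-/

set_option autoImplicit false
set_option linter.unusedSectionVars false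

namespace Cfsg.Agent.H463.G2

open Matrix Subgroup
open Cfsg.Agent
open Cfsg.Agent.UThreeGen.MatGroup
open Cfsg.Agent.HKS.EndU (tor tmat tor_val tor_mem act tor_emb)
open Cfsg.Agent.GTwoOdd (M2 SL2)
open Cfsg.Agent.ChevalleyStructure.SL2Hom (up lo mem_closure_SL2)

variable {F : Type*} [Field F] {σ : F →+* F} [hσ : Fact (∀ x, σ (σ x) = x)]
variable {F₀ : Type*} [Field F₀] (ι : F₀ →+* F) (hι : ∀ x, σ (ι x) = ι x) {e : F} (he : e ≠ 0) (hσe : σ e = -e)

/-- the matrix -/
def am (ι : F₀ →+* F) (e : F) (g : Matrix (Fin 2) (Fin 2) F₀) : Matrix (Fin 3) (Fin 3) F :=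
  !![ι (g 0 0), 0, e * ι (g 0 1); 0, 1, 0; e⁻¹ * ι (g 1 0), 0, ι (g 1 1)]

include he in
theorem am_mul (g h : Matrix (Fin 2) (Fin 2) F₀) : am ι e (g * h) = am ι e g * am ι e h := by
  ext i j
  fin_cases i <;> fin_cases j <;>
    simp [am, Matrix.mul_apply, Fin.sum_univ_three, Fin.sum_univ_two] <;> field_simp

include he in
theorem am_det (g : SL2 F₀) : (am ι e g.1).det = 1 := by
  have h := g.2
  rw [Matrix.det_fin_two] at h
  rw [Matrix.det_fin_three]
  have h1 : ι (g.1 0 0) * ι (g.1 1 1) - ι (g.1 0 1) * ι (g.1 1 0) = 1 := by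
    rw [← map_mul, ← map_mul, ← map_sub, h, map_one]
  simp [am]
  field_simp
  linear_combination h1

include hι he hσe in
theorem am_mem (g : SL2 F₀) : (am ι e g.1)ᵀ * Gm F * (am ι e g.1).map σ = Gm F := by
  have h := g.2
  rw [Matrix.det_fin_two] at h
  have h1 : ι (g.1 0 0) * ι (g.1 1 1) - ι (g.1 0 1) * ι (g.1 1 0) = 1 := by
    rw [← map_mul, ← map_mul, ← map_sub, h, map_one]
  ext i j
  fin_cases i <;> fin_cases j <;>
    simp [am, Gm, Matrix.mul_apply, Fin.sum_univ_three, hι, hσe]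
  · field_simp
    ring
  · field_simp
    linear_combination h1
  · field_simp
    linear_combination h1
  · ring

/-- **`SL₂`** -/
def al : SL2 F₀ →* SUG σ where
  toFun g := ⟨⟨am ι e g.1, am_det ι he g⟩, am_mem ι hι he hσe g⟩
  map_one' := by
    apply Subtype.ext
    apply Subtype.ext
    show am ι e 1 = 1
    ext i j
    fin_cases i <;> fin_cases j <;> simp [am]
  map_mul' g h := by
    apply Subtype.ext
    apply Subtype.ext
    exact am_mul ι he g.1 h.1

theorem al_val (g : SL2 F₀) : (al ι hι he hσe g).1.1 = am ι e g.1 := rfl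

/-- the Weyl element of `SL₂` -/
def ws : SL2 F₀ := ⟨!![0, 1; -1, 0], by simp [Matrix.det_fin_two_of]⟩

theorem al_up (t : F₀) : al ι hι he hσe (up t) = emb σ ⟨0, e * ι t, by simp [hι, hσe]⟩ := by
  apply Subtype.ext
  apply Subtype.ext
  rw [al_val, emb_val]
  ext i j
  fin_cases i <;> fin_cases j <;> simp [am, umat, Cfsg.Agent.H556.SLPair.coe_up]

/-- `x'` -/
def mv (x : HG σ) (hb : x.b ≠ 0) : HG σ :=
  ⟨e * x.a / σ x.b, -(e ^ 2) / x.b, by
    have hb' : σ x.b ≠ 0 := (map_ne_zero σ).mpr hb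
    have h := x.h
    simp only [map_div₀, map_mul, map_neg, map_pow, hσe, sig]
    field_simp
    linear_combination -h⟩

/-- the lower triangular matrix `u(x')⁻¹ n u(x)` -/
def bm (e : F) (x : HG σ) : Matrix (Fin 3) (Fin 3) F :=
  !![e / σ x.b, 0, 0; -σ x.a / x.b, 1 - σ x.a * x.a / x.b, 0; -e⁻¹, -(e⁻¹ * x.a), -(e⁻¹ * x.b)]

include hι he hσe in
theorem bm_eq (x : HG σ) (hb : x.b ≠ 0) :
    ((emb σ (mv he hσe x hb))⁻¹ * (al ι hι he hσe ws * emb σ x)).1.1 = bm e x := by
  have hb' : σ x.b ≠ 0 := (map_ne_zero σ).mpr hb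
  have h := x.h
  rw [← map_inv, coe_mul_SUG, coe_mul_SUG, emb_val, emb_val, al_val]
  ext i j
  fin_cases i <;> fin_cases j <;>
    simp [am, umat, mv, bm, ws, Matrix.mul_apply, Fin.sum_univ_three, sig, hσe]
  all_goals field_simp
  all_goals first
    | ring1
    | linear_combination h
    | linear_combination -h
    | linear_combination e * h

include hι he hσe in
theorem bm_lo (x : HG σ) (hb : x.b ≠ 0) {t t' : F₀} (ht : ι t' * e ^ 2 = -(x.b * σ x.b) * ι t) :
    ((emb σ (mv he hσe x hb))⁻¹ * (al ι hι he hσe ws * emb σ x)) * al ι hι he hσe (lo t) =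
      al ι hι he hσe (lo t') * ((emb σ (mv he hσe x hb))⁻¹ * (al ι hι he hσe ws * emb σ x)) := by
  have hb' : σ x.b ≠ 0 := (map_ne_zero σ).mpr hb
  apply Subtype.ext
  apply Subtype.ext
  rw [coe_mul_SUG, coe_mul_SUG (al ι hι he hσe (lo t')), bm_eq, al_val, al_val]
  ext i j
  fin_cases i <;> fin_cases j <;>
    simp [am, bm, Matrix.mul_apply, Fin.sum_univ_three, Cfsg.Agent.H556.SLPair.coe_lo]
  field_simp
  linear_combination -ht

variable {K : Subgroup (SUG σ)}

/-- the third root group -/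
def P (K : Subgroup (SUG σ)) (x : HG σ) : Prop :=
  ∀ t : F₀, emb σ x * al ι hι he hσe (lo t) * (emb σ x)⁻¹ ∈ K

variable (hfix : ∀ x, σ x = x → ∃ y, ι y = x) (hA : ∀ g, al ι hι he hσe g ∈ K)

include hfix hA in
theorem P_mv {x : HG σ} (hb : x.b ≠ 0) (h : P ι hι he hσe K x) : P ι hι he hσe K (mv he hσe x hb) := by
  intro t
  have hb' : σ x.b ≠ 0 := (map_ne_zero σ).mpr hb
  -- the parameter
  obtain ⟨s, hs⟩ := hfix (-(ι t * e ^ 2) / (x.b * σ x.b)) (by
    simp only [map_div₀, map_neg, map_mul, map_pow, hι, hσe, sig]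
    ring)
  have h1 := bm_lo ι hι he hσe x hb (t := s) (t' := t) (by
    rw [hs]
    field_simp)
  set n := al ι hι he hσe (ws (F₀ := F₀)) with hn
  set u := emb σ x with hu
  set v := emb σ (mv he hσe x hb) with hv
  have h2 : v * al ι hι he hσe (lo t) * v⁻¹ = n * (u * al ι hι he hσe (lo s) * u⁻¹) * n⁻¹ := by
    have h3 : al ι hι he hσe (lo t) = (v⁻¹ * (n * u)) * al ι hι he hσe (lo s) * (v⁻¹ * (n * u))⁻¹ := by
      rw [h1]; group
    rw [h3]; group
  rw [h2]
  exact K.mul_mem (K.mul_mem (hA _) (h s)) (K.inv_mem (hA _))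

include hA in
/-- the whole conjugate of `SL₂` -/
theorem conj_mem {x : HG σ} (h : P ι hι he hσe K x) (g : SL2 F₀) :
    emb σ x * al ι hι he hσe g * (emb σ x)⁻¹ ∈ K := by
  refine Subgroup.closure_induction
    (p := fun g _ => emb σ x * al ι hι he hσe g * (emb σ x)⁻¹ ∈ K) ?_ ?_ ?_ ?_ (mem_closure_SL2 g)
  · rintro _ (⟨t, rfl⟩ | ⟨t, rfl⟩)
    · have h1 : emb σ x * al ι hι he hσe (up t) * (emb σ x)⁻¹ = al ι hι he hσe (up t) := by
        rw [al_up, ← map_inv, ← map_mul, ← map_mul]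
        congr 1
        ext <;> simp
        have := x.h
        linear_combination this
      rw [h1]
      exact hA _
    · exact h t
  · simp
  · intro a b _ _ h1 h2
    have := K.mul_mem h1 h2
    rw [map_mul]
    convert this using 1
    group
  · intro a _ h1
    have := K.inv_mem h1
    rw [map_inv]
    convert this using 1
    group

/-- `(2 a, 2 a σ a)` -/
def dbl (a : F) : HG σ := ⟨2 * a, 2 * (a * σ a), by simp only [map_mul, map_ofNat, sig]; ring⟩

include hA in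
theorem dbl_mem {x : HG σ} (h : P ι hι he hσe K x) : emb σ (dbl x.a) ∈ K := by
  have h1 := K.mul_mem (conj_mem ι hι he hσe hA h (-1)) (K.inv_mem (hA (-1)))
  have h2 : emb σ x * al ι hι he hσe (-1) * (emb σ x)⁻¹ * (al ι hι he hσe (-1))⁻¹ = emb σ (dbl x.a) := by
    rw [mul_inv_eq_iff_eq_mul, mul_inv_eq_iff_eq_mul]
    apply Subtype.ext
    apply Subtype.ext
    rw [coe_mul_SUG, coe_mul_SUG, coe_mul_SUG, emb_val, emb_val, al_val]
    have hx := x.h
    ext i j
    fin_cases i <;> fin_cases j <;>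
      simp [am, umat, dbl, Matrix.mul_apply, Fin.sum_univ_three]
    · ring
    · ring
    · rw [map_ofNat]; ring
  rwa [h2] at h1

section gen

variable (h2 : (2 : F) ≠ 0)

/-- `(1, 1/2)` -/
def x1 (σ : F →+* F) (h2 : (2 : F) ≠ 0) : HG σ := ⟨1, 2⁻¹, by
  rw [map_inv₀, map_ofNat, map_one, mul_one]
  field_simp
  norm_num⟩

/-- scaling by the torus -/
theorem dg_emb (s : F₀) (hs : s ≠ 0) (a : F) :
    al ι hι he hσe (Cfsg.Agent.H556.SLPair.dg s hs) * emb σ (dbl a) *
      (al ι hι he hσe (Cfsg.Agent.H556.SLPair.dg s hs))⁻¹ = emb σ (dbl (ι s * a)) := by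
  have hs' : ι s ≠ 0 := (map_ne_zero ι).mpr hs
  rw [mul_inv_eq_iff_eq_mul]
  apply Subtype.ext
  apply Subtype.ext
  rw [coe_mul_SUG, coe_mul_SUG, emb_val, emb_val, al_val]
  ext i j
  fin_cases i <;> fin_cases j <;>
    simp [am, umat, dbl, Matrix.mul_apply, Fin.sum_univ_three, Cfsg.Agent.H556.SLPair.coe_dg, hι]
  all_goals field_simp

include hfix hA h2 in
theorem emb_mem (h : P ι hι he hσe K (x1 σ h2)) (x : HG σ) : emb σ x ∈ K := by
  have hd : ∀ (s : F₀) (a : F), emb σ (dbl a) ∈ K → emb σ (dbl (ι s * a)) ∈ K := by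
    intro s a ha
    by_cases hs : s = 0
    · have : dbl (σ := σ) (ι s * a) = 1 := by
        rw [hs, map_zero, zero_mul]
        ext <;> simp [dbl]
      rw [this, map_one]
      exact K.one_mem
    · rw [← dg_emb ι hι he hσe s hs]
      exact K.mul_mem (K.mul_mem (hA _) ha) (K.inv_mem (hA _))
  have hb1 : (x1 σ h2).b ≠ 0 := inv_ne_zero h2
  have m1 := dbl_mem ι hι he hσe hA h
  have m2 := dbl_mem ι hι he hσe hA (P_mv ι hι he hσe hfix hA hb1 h)
  have e1 : (x1 σ h2).a = 1 := rfl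
  have e2 : (mv he hσe (x1 σ h2) hb1).a = 2 * e := by
    show e * 1 / σ (2⁻¹) = 2 * e
    rw [map_inv₀, map_ofNat]
    field_simp
  rw [e1] at m1
  rw [e2] at m2
  -- the two coordinates of `x.a`
  obtain ⟨s, hs⟩ := hfix ((x.a + σ x.a) / 4) (by
    rw [map_div₀, map_add, sig, map_ofNat, add_comm])
  obtain ⟨t, ht⟩ := hfix ((x.a - σ x.a) / (8 * e)) (by
    rw [map_div₀, map_sub, sig, map_mul, map_ofNat, hσe, mul_neg, div_neg, ← neg_div, neg_sub])
  have h4 : (4 : F) ≠ 0 := by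
    have : (4 : F) = 2 * 2 := by norm_num
    rw [this]; exact mul_ne_zero h2 h2
  have h8 : (8 : F) ≠ 0 := by
    have : (8 : F) = 2 * 4 := by norm_num
    rw [this]; exact mul_ne_zero h2 h4
  have m3 := K.mul_mem (hd s _ m1) (hd t _ m2)
  rw [← map_mul] at m3
  set y := dbl (σ := σ) (ι s * 1) * dbl (ι t * (2 * e)) with hy
  have hya : y.a = x.a := by
    rw [hy, mul_a]
    show 2 * (ι s * 1) + 2 * (ι t * (2 * e)) = x.a
    rw [hs, ht]
    field_simp
    ring
  -- the difference lies in the centre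
  have hz : (x * y⁻¹).a = 0 := by rw [mul_a, inv_a, hya, add_neg_cancel]
  have hzb := (x * y⁻¹).h
  rw [hz, zero_mul] at hzb
  obtain ⟨c, hc⟩ := hfix ((x * y⁻¹).b / e) (by
    rw [map_div₀, hσe, div_neg, ← neg_div]
    congr 1
    linear_combination -hzb)
  have h5 : x * y⁻¹ = ⟨0, e * ι c, by simp [hι, hσe]⟩ := by
    ext
    · exact hz
    · show (x * y⁻¹).b = e * ι c
      rw [hc]
      field_simp
  have h6 : emb σ (x * y⁻¹) ∈ K := by
    rw [h5, ← al_up ι hι he hσe]
    exact hA _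
  have h7 := K.mul_mem h6 m3
  rwa [← map_mul, inv_mul_cancel_right] at h7

include hfix hA h2 in
/-- **Three root groups generate.** -/
theorem gen3 (h : P ι hι he hσe K (x1 σ h2)) (g : SUG σ) (x : HG σ) : g * emb σ x * g⁻¹ ∈ K := by
  have D := data_SUG (σ := σ)
  have hU : ∀ u ∈ (emb σ).range, u ∈ K := by
    rintro _ ⟨y, rfl⟩
    exact emb_mem ι hι he hσe hfix hA h2 h y
  by_cases hg : g ∈ borel σ
  · exact hU _ (D.norm g hg _ ⟨x, rfl⟩)
  obtain ⟨s, hs, hb⟩ := D.bruhat g hg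
  set b := (s * wel σ)⁻¹ * g with hbdef
  have hgb : g = s * wel σ * b := by rw [hbdef]; group
  set n := al ι hι he hσe (ws (F₀ := F₀)) with hn
  have hnw : n⁻¹ * wel σ ∈ borel σ := by
    have h3 : (n⁻¹ * wel σ)⁻¹ ∈ borel σ := by
      rw [_root_.mul_inv_rev, inv_inv, wel_inv, mem_borel, coe_mul_SUG, wel_val]
      obtain ⟨-, j1, j2⟩ := Wm_mul_apply n.1.1 0
      rw [j1, j2, hn, al_val]
      simp [am, ws]
    rw [← inv_inv (n⁻¹ * wel σ)]
    exact (borel σ).inv_mem h3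
  have h4 := D.norm _ ((borel σ).mul_mem hnw hb) _ ⟨x, rfl⟩
  have e1 : g * emb σ x * g⁻¹ = s * (n * (n⁻¹ * wel σ * b * emb σ x * (n⁻¹ * wel σ * b)⁻¹) * n⁻¹) * s⁻¹ := by
    rw [hgb]; group
  rw [e1]
  exact K.mul_mem (K.mul_mem (hU s hs) (K.mul_mem (K.mul_mem (hA _) (hU _ h4)) (K.inv_mem (hA _)))) (K.inv_mem (hU s hs))

end gen

end Cfsg.Agent.H463.G2
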