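import Cfsg.Agent.H463.G2.Cen
import Cfsg.Agent.H556.GTwoFus
import Cfsg.Agent.H556.GTwoCent
import Cfsg.Agent.Lib.AutSL2
import Cfsg.Agent.OddCyclic.T1Sl2
import Cfsg.Agent.S1059

/-!
# `SL₂(q)` in `G₂(q)`, `q` odd, with a large centraliser (helper463, S3938)

`root_conj` : let `α : SL₂(F₀) → G₂(F)` be a homomorphism with `α(-1) ≠ 1` commuting with `y`, `y ^ 4 ≠ 1`, `F₀` and `F` of the
same odd characteristic. Then some conjugate of the root group `α(up F₀)` lies in `x₁₁(F)` (long) or in `x₇(F)` (short).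
-/

set_option autoImplicit false

namespace Cfsg.Agent.H463.G2

open Matrix Subgroup Cfsg Cfsg.Lie
open Cfsg.Agent.GTwoOdd (M2 SL2 m2_ext sl2_ext)
open Cfsg.Agent.ChevalleyStructure.SL2Hom (up lo mem_closure_SL2)
open Cfsg.Agent.ClassificationK.GTwoChev
open Cfsg.Agent.H556.SLPair
open Cfsg.Agent.Lib.AutSL2 (upG sylU)

section

variable {F : Type*} [Field F] [Fintype F]

/-- all involutions are conjugate -/
theorem exists_conj_z (h2 : (2 : F) ≠ 0) {P : Pair F ↥(chevG2.group F)} (hu : IsConj P.z P.u) (hzd : IsConj P.z P.d)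
    {t : ↥(chevG2.group F)} (ht : t * t = 1) (ht1 : t ≠ 1) : ∃ g, g * t * g⁻¹ = P.z := by
  classical
  have i2 : Fact (Nat.Prime 2) := ⟨Nat.prime_two⟩
  have hfin : Finite ↥(chevG2.group F) := inferInstance
  set q := Fintype.card F with hq
  have hq2 : 2 ≤ q := Fintype.one_lt_card
  -- the index of the centraliser is odd
  have hodd : ¬ 2 ∣ P.K.index := by
    have h3 := P.card_K
    have h4 : Nat.card (SL2 F) = (q + 1) * q * (q - 1) := Cfsg.Agent.OddCyclic.T1Sl2.card_sl2'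
    have h5 := Cfsg.Agent.S1059.result (F := F) (q := q) rfl
    have h6 := P.K.card_mul_index
    rw [h3, h4, h5] at h6
    obtain ⟨k, hk⟩ : ∃ k, q = k + 2 := ⟨q - 2, by omega⟩
    have e1 : q - 1 = k + 1 := by omega
    have e2 : q ^ 2 - 1 = (k + 1) * (k + 3) := by
      rw [hk]; apply Nat.sub_eq_of_eq_add; ring
    have e3 : q ^ 6 - 1 = (k + 1) * (k + 3) * (q ^ 4 + q ^ 2 + 1) := by
      rw [hk]; apply Nat.sub_eq_of_eq_add; ring
    have e4 : q + 1 = k + 3 := by omega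
    rw [e1, e2, e3, e4] at h6
    have h7 : P.K.index = q ^ 4 * (q ^ 4 + q ^ 2 + 1) := by
      have h8 : (k + 1) ^ 2 * (k + 3) ^ 2 * q ^ 2 * P.K.index =
          (k + 1) ^ 2 * (k + 3) ^ 2 * q ^ 2 * (q ^ 4 * (q ^ 4 + q ^ 2 + 1)) := by
        calc _ = ((k + 3) * q * (k + 1)) ^ 2 * P.K.index := by ring
          _ = _ := by rw [h6]; ring
      exact Nat.eq_of_mul_eq_mul_left (by positivity) h8
    have hqo : Odd q := by
      rw [hq, Nat.odd_iff]
      by_contra hcon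
      apply h2
      have h8 : 2 ∣ Fintype.card F := by omega
      obtain ⟨p, hc⟩ := CharP.exists F
      obtain ⟨n, hp, hn⟩ := FiniteField.card F p
      rw [hn] at h8
      have h9 := (Nat.prime_dvd_prime_iff_eq Nat.prime_two hp).1 (Nat.prime_two.dvd_of_dvd_pow h8)
      subst h9
      have := CharP.cast_eq_zero F 2
      simpa using this
    rw [h7]
    intro h8
    have h9 : Odd (q ^ 4 * (q ^ 4 + q ^ 2 + 1)) := by
      refine hqo.pow.mul ?_
      have h10 : Even (q ^ 4 + q ^ 2) := hqo.pow.add_odd hqo.pow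
      exact h10.add_one
    exact (Nat.not_even_iff_odd.2 h9) (even_iff_two_dvd.2 h8)
  have htp : IsPGroup 2 (zpowers t) := by
    refine IsPGroup.of_card (n := 1) ?_
    rw [Nat.card_zpowers, pow_one]
    exact orderOf_eq_prime (by rw [pow_two, ht]) ht1
  obtain ⟨x, hx⟩ := htp.nonempty_fixed_point_of_prime_not_dvd_card (↥(chevG2.group F) ⧸ P.K) hodd
  induction x using QuotientGroup.induction_on with
  | H g =>
    have h3 : t • (QuotientGroup.mk g : ↥(chevG2.group F) ⧸ P.K) = QuotientGroup.mk g :=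
      hx (⟨t, mem_zpowers t⟩ : zpowers t)
    have h4 : g⁻¹ * t * g ∈ P.K := by
      have h5 : (QuotientGroup.mk (t * g) : ↥(chevG2.group F) ⧸ P.K) = QuotientGroup.mk g := h3
      rw [eq_comm, QuotientGroup.eq] at h5
      rwa [mul_assoc]
    have h5 := P.conj_of_mem_K hu hzd h4 (by
      calc g⁻¹ * t * g * (g⁻¹ * t * g) = g⁻¹ * (t * t) * g := by group
        _ = 1 := by rw [ht]; group) (by
      intro h
      apply ht1
      have : t = g * (g⁻¹ * t * g) * g⁻¹ := by group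
      rw [this, h]; group)
    obtain ⟨c, hc⟩ := isConj_iff.1 h5
    refine ⟨c⁻¹ * g⁻¹, ?_⟩
    have h6 : c⁻¹ * g⁻¹ * t * (c⁻¹ * g⁻¹)⁻¹ = c⁻¹ * (g⁻¹ * t * g) * c := by group
    rw [h6, ← hc]; group

/-- a `p`-subgroup of `SL₂` -/
theorem exists_up {p : ℕ} [Fact p.Prime] [CharP F p] {Q : Subgroup (SL2 F)} (hQ : IsPGroup p Q) :
    ∃ x : SL2 F, ∀ m ∈ Q, ∃ s, x * m * x⁻¹ = up s := by
  obtain ⟨R, hR⟩ := hQ.exists_le_sylow
  obtain ⟨x, hx⟩ := MulAction.exists_smul_eq (SL2 F) R (sylU F p)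
  refine ⟨x, fun m hm => ?_⟩
  have h1 : x * m * x⁻¹ ∈ ((x • R : Sylow p (SL2 F)) : Subgroup (SL2 F)) := by
    rw [Sylow.coe_subgroup_smul]
    exact ⟨m, hR hm, rfl⟩
  rw [hx] at h1
  obtain ⟨s, hs⟩ := h1
  exact ⟨s, hs.symm⟩

variable {F₀ : Type*} [Field F₀]

/-- conjugation of a root group -/
theorem root_of_range {p : ℕ} [Fact p.Prime] [CharP F p] [CharP F₀ p] {Γ : Type*} [Group Γ] {φ : SL2 F →* Γ}
    (hφ : Function.Injective φ) {α : SL2 F₀ →* Γ} (h : ∀ a, α a ∈ φ.range) :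
    ∃ x : SL2 F, ∀ t : F₀, ∃ s : F, φ x * α (up t) * (φ x)⁻¹ = φ (up s) := by
  set Q : Subgroup (SL2 F) := ((upG F₀).map α).comap φ with hQ
  have hp : IsPGroup p Q := by
    rintro ⟨m, hm⟩
    obtain ⟨_, ⟨t, rfl⟩, ht⟩ := hm
    refine ⟨1, ?_⟩
    apply Subtype.ext
    show m ^ p ^ 1 = 1
    rw [pow_one]
    apply hφ
    rw [map_pow, ← ht, map_one, ← map_pow]
    have h1 : ∀ n : ℕ, (up t : SL2 F₀) ^ n = up ((n : F₀) * t) := by
      intro n
      induction n with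
      | zero => rw [pow_zero, Nat.cast_zero, zero_mul, up_zero]
      | succ n ih => rw [pow_succ, ih, up_mul_up]; push_cast; congr 1; ring
    have h2 : α ((up t : SL2 F₀) ^ p) = 1 := by
      rw [h1, CharP.cast_eq_zero, zero_mul, up_zero, map_one]
    exact h2
  obtain ⟨x, hx⟩ := exists_up hp
  refine ⟨x, fun t => ?_⟩
  obtain ⟨m, hm⟩ := h (up t)
  have hmQ : m ∈ Q := ⟨up t, ⟨t, rfl⟩, hm.symm⟩
  obtain ⟨s, hs⟩ := hx m hmQ
  refine ⟨s, ?_⟩
  rw [← hm, ← map_inv, ← map_mul, ← map_mul, hs]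

/-- **The root groups of a subgroup `SL₂(F₀)` with a large centraliser.** -/
theorem root_conj {p : ℕ} [Fact p.Prime] [CharP F p] [CharP F₀ p] (h2 : (2 : F) ≠ 0) (h20 : (2 : F₀) ≠ 0)
    (hs : ∃ s : F₀, s ≠ 0 ∧ s ^ 2 ≠ 1) (α : SL2 F₀ →* ↥(chevG2.group F)) (hα : α (-1) ≠ 1)
    {y : ↥(chevG2.group F)} (hy : ∀ a, α a * y = y * α a) (hy4 : y ^ 4 ≠ 1) :
    ∃ g : ↥(chevG2.group F), (∀ t, ∃ s, g * α (up t) * g⁻¹ = ph11 F (up s)) ∨
      (∀ t, ∃ s, g * α (up t) * g⁻¹ = ph7 F (up s)) := by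
  obtain ⟨P, hφ, hψ, hd, hu, hzd⟩ := Cfsg.Agent.H556.GTwoFus.exists_pair F h2
  have hcent := Cfsg.Agent.H556.GTwoCent.cent_eq P hφ hψ hd
  obtain ⟨g, hg⟩ := exists_conj_z h2 hu hzd (t := α (-1)) (by
    rw [← map_mul]; simp) hα
  set β : SL2 F₀ →* ↥(chevG2.group F) := (MulAut.conj g).toMonoidHom.comp α with hβ
  have hβa : ∀ a, β a = g * α a * g⁻¹ := fun a => rfl
  have hβK : ∀ a, β a ∈ P.K := by
    intro a
    rw [← hcent, mem_centralizer_singleton_iff, ← hg, hβa]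
    have h3 : α a * α (-1) = α (-1) * α a := by rw [← map_mul, ← map_mul]; simp
    calc g * α a * g⁻¹ * (g * α (-1) * g⁻¹) = g * (α a * α (-1)) * g⁻¹ := by group
      _ = _ := by rw [h3]; group
  have hyK : g * y * g⁻¹ ∈ P.K := by
    rw [← hcent, mem_centralizer_singleton_iff, ← hg]
    calc g * y * g⁻¹ * (g * α (-1) * g⁻¹) = g * (y * α (-1)) * g⁻¹ := by group
      _ = _ := by rw [← hy]; group
  have hc : ∀ a, β a * (g * y * g⁻¹) = g * y * g⁻¹ * β a := by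
    intro a
    rw [hβa]
    calc g * α a * g⁻¹ * (g * y * g⁻¹) = g * (α a * y) * g⁻¹ := by group
      _ = _ := by rw [hy]; group
  have hy4' : (g * y * g⁻¹) ^ 4 ≠ 1 := by
    rw [conj_pow]
    intro h
    apply hy4
    exact conj_eq_one_iff.1 h
  have key : ∀ (x : ↥(chevG2.group F)) (t : F₀), x * β (up t) * x⁻¹ = (x * g) * α (up t) * (x * g)⁻¹ := by
    intro x t
    rw [hβa]; group
  rcases factor P h20 hs β hβK hyK hc hy4' with h | h
  · obtain ⟨x, hx⟩ := root_of_range (p := p) P.injφ h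
    refine ⟨P.φ x * g, Or.inl fun t => ?_⟩
    obtain ⟨s, hs⟩ := hx t
    exact ⟨s, by rw [← key, hs, hφ]⟩
  · obtain ⟨x, hx⟩ := root_of_range (p := p) P.injψ h
    refine ⟨P.ψ x * g, Or.inr fun t => ?_⟩
    obtain ⟨s, hs⟩ := hx t
    exact ⟨s, by rw [← key, hs, hψ]⟩

end

end Cfsg.Agent.H463.G2
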