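import Cfsg.Agent.H463.G2.Com
import Cfsg.Agent.LieRecognition.ReeSeven
import Cfsg.Agent.ClassificationK.GTwoChev

/-!
# The two 7-dimensional modules of `G₂(q)`, `q = 3^a` (helper463, S3938)

`rW`, `rQ` : the short root ideal of the Lie algebra and the quotient by it, as homomorphisms to `End (F⁷)`.
`br_rW` : `[V, x₁₁(t)]` is at most 2-dimensional on `rW` (long root group); `br_rQ` : `[V, x₇(t)]` is at most 2-dimensional
on `rQ` (short root group).
`top_rW`, `top_rQ` : no proper subspace contains all `[V, g]`.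
-/

set_option autoImplicit false

namespace Cfsg.Agent.H463.G2

open Matrix Subgroup Cfsg Cfsg.Lie
open Cfsg.Agent.LieRecognition.ReeSeven (Good wb qb wb_mul qb_mul wb_one qb_one xMat_good wb_apply qb_apply)
open Cfsg.Agent.LieRecognition.ReeSevenEntries (pos cd xMat_entry)
open Cfsg.Agent.LieRecognition.ReeSevenTable (xc xd)
open Cfsg.Agent.ClassificationK.GTwoChev (mat mat_mul mat_one m11u m7u ph11 ph7)
open Cfsg.Agent.ChevalleyStructure.SL2Hom (up lo)

section

variable {F : Type*} [Field F] [Finite F] [CharP F 3]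

theorem good_mem {g : GL chevG2.Idx F} (hg : g ∈ chevG2.group F) :
    Good (g : Matrix chevG2.Idx chevG2.Idx F) := by
  have hfin : Finite (GL chevG2.Idx F) := inferInstance
  have hpow : ∀ (h : GL chevG2.Idx F) (n : ℕ), Good (h : Matrix chevG2.Idx chevG2.Idx F) →
      Good ((h ^ n : GL chevG2.Idx F) : Matrix chevG2.Idx chevG2.Idx F) := by
    intro h n hh
    induction n with
    | zero =>
      rw [pow_zero]
      exact Good.one
    | succ n ih =>
      rw [pow_succ]
      exact Good.mul ih hh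
  rw [ChevalleyDatum.group] at hg
  induction hg using Subgroup.closure_induction with
  | mem x hx =>
    obtain ⟨r, t, h⟩ := hx
    rw [h]
    exact xMat_good r t
  | one => exact Good.one
  | mul x y _ _ hx hy => exact Good.mul hx hy
  | inv x _ hx =>
    have h1 : x⁻¹ = x ^ (orderOf x - 1) := by
      have h2 := orderOf_pos x
      rw [inv_eq_iff_mul_eq_one, ← pow_succ', Nat.sub_add_cancel h2, pow_orderOf_eq_one]
    rw [h1]
    exact hpow x _ hx

theorem good (g : ↥(chevG2.group F)) : Good (mat g) := good_mem g.2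

/-- the module on the short root ideal -/
noncomputable def rW (F : Type*) [Field F] [Finite F] [CharP F 3] :
    ↥(chevG2.group F) →* ((Fin 7 → F) →ₗ[F] (Fin 7 → F)) :=
  (Matrix.toLinAlgEquiv' (R := F) (n := Fin 7)).toAlgHom.toMonoidHom.comp
    { toFun := fun g => wb (mat g)
      map_one' := wb_one
      map_mul' := fun g h => by
        change wb (mat (g * h)) = wb (mat g) * wb (mat h)
        rw [mat_mul]
        exact wb_mul (good h).zero }

/-- the module on the quotient by the short root ideal -/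
noncomputable def rQ (F : Type*) [Field F] [Finite F] [CharP F 3] :
    ↥(chevG2.group F) →* ((Fin 7 → F) →ₗ[F] (Fin 7 → F)) :=
  (Matrix.toLinAlgEquiv' (R := F) (n := Fin 7)).toAlgHom.toMonoidHom.comp
    { toFun := fun g => qb (mat g)
      map_one' := qb_one
      map_mul' := fun g h => by
        change qb (mat (g * h)) = qb (mat g) * qb (mat h)
        rw [mat_mul]
        exact qb_mul (good g).zero }

theorem rW_apply (g : ↥(chevG2.group F)) (v : Fin 7 → F) : rW F g v = wb (mat g) *ᵥ v := rfl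

theorem rQ_apply (g : ↥(chevG2.group F)) (v : Fin 7 → F) : rQ F g v = qb (mat g) *ᵥ v := rfl

theorem exists_xel (F : Type*) [Field F] (r : Fin chevG2.nroots) :
    ∃ g : ↥(chevG2.group F), mat g = chevG2.xMat F r 1 := by
  have hr : (r : ℕ) < chevG2.nroots := r.2
  refine ⟨Cfsg.Agent.ClassificationK.GTwoChev.ph r.val hr F (up 1), ?_⟩
  rw [Cfsg.Agent.ClassificationK.GTwoChev.mat_up]
  unfold ChevalleyDatum.x
  rw [dif_pos hr]

omit [Finite F] [CharP F 3] in
theorem sum_single (v : Fin 7 → F) : v = ∑ i, v i • (Pi.single i (1 : F) : Fin 7 → F) := by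
  ext j
  rw [Finset.sum_apply, Finset.sum_eq_single j]
  · simp
  · intro b _ hb
    rw [Pi.smul_apply, Pi.single_eq_of_ne (Ne.symm hb), smul_zero]
  · intro hj
    exact absurd (Finset.mem_univ j) hj

omit [Finite F] [CharP F 3] in
/-- a subspace containing the coordinate vectors is everything -/
theorem top_of_single {U : Submodule F (Fin 7 → F)} (h : ∀ i, Pi.single i (1 : F) ∈ U) : U = ⊤ := by
  rw [eq_top_iff]
  intro v _
  rw [sum_single v]
  exact U.sum_mem fun i _ => U.smul_mem _ (h i)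

omit [Finite F] in
theorem two_ne (F : Type*) [Field F] [CharP F 3] : (2 : F) ≠ 0 := by
  intro h
  have h3 : (3 : F) = 0 := by exact_mod_cast CharP.cast_eq_zero F 3
  have h4 : (1 : F) = 0 := by linear_combination h3 - h
  exact one_ne_zero h4

omit [Finite F] in
/-- the criterion for `[V, G] = V` -/
theorem top_of_cols {U : Submodule F (Fin 7 → F)} {B : Fin 12 → Matrix (Fin 7) (Fin 7) F} {e : ℕ → ℕ → ℕ → ℕ}
    (hB : ∀ r a j, B r a j = (e r.val a.val j.val : F)) (hU : ∀ r v, B r *ᵥ v - v ∈ U)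
    (c1 : ∀ i : Fin 7, i ≠ 0 → ∃ r : Fin 12, ∃ j : Fin 7, j ≠ i ∧ (e r i j = 1 ∨ e r i j = 2) ∧
      ∀ a : Fin 7, a ≠ i → e r a j = if a = j then 1 else 0)
    (c0 : ∃ r : Fin 12, ∃ j : Fin 7, j ≠ 0 ∧ (e r 0 j = 1 ∨ e r 0 j = 2)) : U = ⊤ := by
  have hcast : ∀ n : ℕ, (n = 1 ∨ n = 2) → (n : F) ≠ 0 := by
    rintro n (rfl | rfl)
    · rw [Nat.cast_one]; exact one_ne_zero
    · exact_mod_cast two_ne F
  have hcol : ∀ (r : Fin 12) (j a : Fin 7), (B r *ᵥ Pi.single j 1 - Pi.single j 1 : Fin 7 → F) a =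
      (e r a j : F) - if a = j then 1 else 0 := by
    intro r j a
    rw [Pi.sub_apply, Matrix.mulVec_single_one, Pi.single_apply]
    change B r a j - _ = _
    rw [hB]
  have h1 : ∀ i : Fin 7, i ≠ 0 → (Pi.single i (1 : F) : Fin 7 → F) ∈ U := by
    intro i hi
    obtain ⟨r, j, hj, hc, ha⟩ := c1 i hi
    have h2 : (B r *ᵥ Pi.single j 1 - Pi.single j 1) = (e r i j : F) • (Pi.single i (1 : F) : Fin 7 → F) := by
      ext a
      rw [hcol, Pi.smul_apply, Pi.single_apply, smul_eq_mul]
      by_cases hai : a = i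
      · subst hai
        rw [if_neg (Ne.symm hj), if_pos rfl, sub_zero, mul_one]
      · rw [ha a hai, if_neg hai, mul_zero]
        split_ifs
        · rw [Nat.cast_one, sub_self]
        · rw [Nat.cast_zero, sub_self]
    have h3 := hU r (Pi.single j 1)
    rw [h2] at h3
    have h4 := U.smul_mem (e r i j : F)⁻¹ h3
    rwa [smul_smul, inv_mul_cancel₀ (hcast _ hc), one_smul] at h4
  apply top_of_single
  intro i
  by_cases hi : i = 0
  · subst hi
    obtain ⟨r, j, hj, hc⟩ := c0
    set w := B r *ᵥ Pi.single j 1 - Pi.single j 1 with hw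
    have hw0 : w 0 = (e r 0 j : F) := by
      rw [hw, hcol, if_neg (Ne.symm hj), sub_zero]
      rfl
    have h2 : w - ∑ a ∈ Finset.univ.erase (0 : Fin 7), w a • (Pi.single a (1 : F) : Fin 7 → F) =
        w 0 • (Pi.single 0 (1 : F) : Fin 7 → F) := by
      rw [sub_eq_iff_eq_add]
      conv_lhs => rw [sum_single w]
      exact (Finset.add_sum_erase (Finset.univ : Finset (Fin 7))
        (fun a => w a • (Pi.single a (1 : F) : Fin 7 → F)) (Finset.mem_univ 0)).symm
    have h3 : w - ∑ a ∈ Finset.univ.erase (0 : Fin 7), w a • (Pi.single a (1 : F) : Fin 7 → F) ∈ U :=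
      U.sub_mem (hU r _) (U.sum_mem fun a ha => U.smul_mem _ (h1 a (Finset.ne_of_mem_erase ha)))
    rw [h2] at h3
    have h4 := U.smul_mem (w 0)⁻¹ h3
    rwa [smul_smul, inv_mul_cancel₀ (by rw [hw0]; exact hcast _ hc), one_smul] at h4
  · exact h1 i hi

theorem top_rW (U : Submodule F (Fin 7 → F)) (h : ∀ g, br (rW F) g ≤ U) : U = ⊤ := by
  refine top_of_cols (B := fun r => wb (chevG2.xMat F r 1)) (e := fun r a j => xc r a j) ?_ ?_ ?_ ?_
  · intro r a j
    exact (xMat_entry (r : Fin chevG2.nroots) (1 : F) (Sum.inl a) (Sum.inl j)).trans (by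
      rw [one_pow, mul_one]; rfl)
  · intro r v
    obtain ⟨g, hg⟩ := exists_xel F r
    have h1 := br_le_iff.1 (h g) v
    rwa [rW_apply, hg] at h1
  · decide +kernel
  · decide +kernel

theorem top_rQ (U : Submodule F (Fin 7 → F)) (h : ∀ g, br (rQ F) g ≤ U) : U = ⊤ := by
  refine top_of_cols (B := fun r => qb (chevG2.xMat F r 1)) (e := fun r a j => xc r (a + 7) (j + 7)) ?_ ?_ ?_ ?_
  · intro r a j
    exact (xMat_entry (r : Fin chevG2.nroots) (1 : F) (Sum.inr a) (Sum.inr j)).trans (by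
      rw [one_pow, mul_one]; rfl)
  · intro r v
    obtain ⟨g, hg⟩ := exists_xel F r
    have h1 := br_le_iff.1 (h g) v
    rwa [rQ_apply, hg] at h1
  · decide +kernel
  · decide +kernel

/-- a two-dimensional coordinate space -/
def D2 (F : Type*) [Field F] (i j : Fin 7) : Submodule F (Fin 7 → F) :=
  Submodule.span F {Pi.single i 1, Pi.single j 1}

omit [Finite F] [CharP F 3] in
theorem finrank_D2 (i j : Fin 7) : Module.finrank F (D2 F i j) ≤ 2 := by
  classical
  refine (finrank_span_le_card _).trans ?_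
  rw [Set.toFinset_card]
  exact (Fintype.card_le_of_surjective (α := Fin 2)
    (fun k => if k = 0 then ⟨Pi.single i 1, Or.inl rfl⟩ else ⟨Pi.single j 1, Or.inr rfl⟩) (by
      rintro ⟨_, rfl | rfl⟩
      · exact ⟨0, by simp⟩
      · exact ⟨1, by simp⟩)).trans (by simp)

omit [Finite F] [CharP F 3] in
theorem mem_D2 {i j : Fin 7} (hij : i ≠ j) {v : Fin 7 → F} (h : ∀ a, a ≠ i → a ≠ j → v a = 0) : v ∈ D2 F i j := by
  have h1 : v = v i • (Pi.single i (1 : F) : Fin 7 → F) + v j • (Pi.single j (1 : F) : Fin 7 → F) := by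
    ext a
    rw [Pi.add_apply, Pi.smul_apply, Pi.smul_apply, Pi.single_apply, Pi.single_apply, smul_eq_mul, smul_eq_mul]
    by_cases hi : a = i
    · subst hi
      rw [if_pos rfl, if_neg hij]
      ring
    · by_cases hj : a = j
      · subst hj
        rw [if_pos rfl, if_neg hi]
        ring
      · rw [if_neg hi, if_neg hj, h a hi hj]
        ring
  rw [h1]
  exact Submodule.add_mem _ (Submodule.smul_mem _ _ (Submodule.subset_span (Or.inl rfl)))
    (Submodule.smul_mem _ _ (Submodule.subset_span (Or.inr rfl)))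

theorem br_rW (t : F) : br (rW F) (ph11 F (up t)) ≤ D2 F 2 3 := by
  rw [br_le_iff]
  intro v
  rw [rW_apply, m11u]
  have hr : 11 < chevG2.nroots := by decide
  have h1 : chevG2.x F 11 t = chevG2.xMat F ⟨11, hr⟩ t := by
    unfold ChevalleyDatum.x
    rw [dif_pos hr]
  rw [h1]
  refine mem_D2 (by decide) fun a ha hb => ?_
  have h2 : ∀ a : Fin 7, a ≠ 2 → a ≠ 3 → ∀ j : Fin 7, xc 11 a j = if a = j then 1 else 0 := by decide +kernel
  have h3 : ∀ j, wb (chevG2.xMat F ⟨11, hr⟩ t) a j = (1 : Matrix (Fin 7) (Fin 7) F) a j := by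
    intro j
    refine (xMat_entry (⟨11, hr⟩ : Fin chevG2.nroots) t (Sum.inl a) (Sum.inl j)).trans ?_
    change ((xc 11 a j : ℕ) : F) * t ^ (xd 11 a j) = _
    rw [h2 a ha hb j, Matrix.one_apply]
    by_cases haj : a = j
    · subst haj
      have h4 : ∀ a : Fin 7, xd 11 a a = 0 := by decide +kernel
      rw [if_pos rfl, if_pos rfl, h4, pow_zero, mul_one, Nat.cast_one]
    · rw [if_neg haj, if_neg haj, Nat.cast_zero, zero_mul]
  have h5 : (wb (chevG2.xMat F ⟨11, hr⟩ t) *ᵥ v) a = ((1 : Matrix (Fin 7) (Fin 7) F) *ᵥ v) a := by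
    rw [Matrix.mulVec, Matrix.mulVec, dotProduct, dotProduct]
    exact Finset.sum_congr rfl fun j _ => by rw [h3]
  rw [Pi.sub_apply, h5, Matrix.one_mulVec, sub_self]

theorem br_rQ (t : F) : br (rQ F) (ph7 F (up t)) ≤ D2 F 2 4 := by
  rw [br_le_iff]
  intro v
  rw [rQ_apply, m7u]
  have hr : 7 < chevG2.nroots := by decide
  have h1 : chevG2.x F 7 t = chevG2.xMat F ⟨7, hr⟩ t := by
    unfold ChevalleyDatum.x
    rw [dif_pos hr]
  rw [h1]
  refine mem_D2 (by decide) fun a ha hb => ?_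
  have h2 : ∀ a : Fin 7, a ≠ 2 → a ≠ 4 → ∀ j : Fin 7, xc 7 (a + 7) (j + 7) = if a = j then 1 else 0 := by
    decide +kernel
  have h3 : ∀ j, qb (chevG2.xMat F ⟨7, hr⟩ t) a j = (1 : Matrix (Fin 7) (Fin 7) F) a j := by
    intro j
    refine (xMat_entry (⟨7, hr⟩ : Fin chevG2.nroots) t (Sum.inr a) (Sum.inr j)).trans ?_
    change ((xc 7 (a + 7) (j + 7) : ℕ) : F) * t ^ (xd 7 (a + 7) (j + 7)) = _
    rw [h2 a ha hb j, Matrix.one_apply]
    by_cases haj : a = j
    · subst haj
      have h4 : ∀ a : Fin 7, xd 7 (a + 7) (a + 7) = 0 := by decide +kernel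
      rw [if_pos rfl, if_pos rfl, h4, pow_zero, mul_one, Nat.cast_one]
    · rw [if_neg haj, if_neg haj, Nat.cast_zero, zero_mul]
  have h5 : (qb (chevG2.xMat F ⟨7, hr⟩ t) *ᵥ v) a = ((1 : Matrix (Fin 7) (Fin 7) F) *ᵥ v) a := by
    rw [Matrix.mulVec, Matrix.mulVec, dotProduct, dotProduct]
    exact Finset.sum_congr rfl fun j _ => by rw [h3]
  rw [Pi.sub_apply, h5, Matrix.one_mulVec, sub_self]

end

end Cfsg.Agent.H463.G2
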