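import Cfsg.Agent.H463.G2.Uni
import Cfsg.Agent.H56.Wei.Defs

/-!
# 3/2-generation of `G₂(q)`, `q = 3^a ≥ 9`, from the overgroups of the torus `q² - q + 1` (helper463, S3938)

`spr_of_over`.
-/

set_option autoImplicit false
set_option linter.unusedSectionVars false

namespace Cfsg.Agent.H463.G2

open Matrix Subgroup Cfsg Cfsg.Lie
open Cfsg.Agent
open Cfsg.Agent.H424.Spr (Spr)
open Cfsg.Agent.H56.Wei (Over)

section num

/-- `r ∣ q² - q + 1` has `ord_r(q) = 6` -/
theorem ord_six {r : ℕ} [hr : Fact r.Prime] {q : ℕ} (hq : 1 ≤ q) (hrq : r ∣ q ^ 2 - q + 1) (h2 : r ≠ 2) (h3 : r ≠ 3) :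
    ∀ j, j ≤ 7 → r ∣ q ^ j - 1 → j = 0 ∨ j = 6 := by
  intro j hj hd
  have e1 : ((q : ZMod r)) ^ 2 - q + 1 = 0 := by
    have h := (ZMod.natCast_eq_zero_iff (q ^ 2 - q + 1) r).2 hrq
    rw [Nat.cast_add, Nat.cast_sub (by nlinarith), Nat.cast_pow, Nat.cast_one] at h
    exact h
  have e2 : ((q : ZMod r)) ^ j = 1 := by
    have h := (ZMod.natCast_eq_zero_iff (q ^ j - 1) r).2 hd
    rw [Nat.cast_sub (Nat.one_le_pow _ _ (by omega)), Nat.cast_pow, Nat.cast_one, sub_eq_zero] at h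
    exact h
  have n2 : (2 : ZMod r) ≠ 0 := by
    intro h
    have h' : ((2 : ℕ) : ZMod r) = 0 := by exact_mod_cast h
    rw [ZMod.natCast_eq_zero_iff] at h'
    exact h2 ((Nat.prime_dvd_prime_iff_eq hr.out Nat.prime_two).1 h')
  have n3 : (3 : ZMod r) ≠ 0 := by
    intro h
    have h' : ((3 : ℕ) : ZMod r) = 0 := by exact_mod_cast h
    rw [ZMod.natCast_eq_zero_iff] at h'
    exact h3 ((Nat.prime_dvd_prime_iff_eq hr.out Nat.prime_three).1 h')
  have n1 : (1 : ZMod r) ≠ 0 := one_ne_zero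
  generalize (q : ZMod r) = Q at e1 e2
  have e3 : Q ^ 3 = -1 := by linear_combination (Q + 1) * e1
  rcases (by omega : j = 0 ∨ j = 1 ∨ j = 2 ∨ j = 3 ∨ j = 4 ∨ j = 5 ∨ j = 6 ∨ j = 7) with
    h | h | h | h | h | h | h | h <;> subst h
  · exact Or.inl rfl
  · exact absurd (by linear_combination e1 - Q * e2) n1
  · exact absurd (by linear_combination (Q + 2) * e1 - (Q + 1) * e2) n3
  · exact absurd (by linear_combination e3 - e2) n2
  · exact absurd (by linear_combination e1 + (Q - 2) * (e2 - Q * e3)) n3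
  · exact absurd (by linear_combination -(e2 - Q ^ 2 * e3) + Q * (e1 + (e2 - Q ^ 2 * e3))) n1
  · exact Or.inr rfl
  · exact absurd (by linear_combination e1 - Q * (e2 - Q * (Q ^ 3 - 1) * e3)) n1

end num

section

/-- the kernel of `ρ` is trivial when `T` is simple and `[V, T] = V ≠ 0` -/
theorem ρ_ne_one {T : Type*} [Group T] [IsSimpleGroup T] {F : Type*} [Field F] {V : Type*} [AddCommGroup V]
    [Module F V] [Nontrivial V] (ρ : T →* (V →ₗ[F] V)) (hV : ∀ U : Submodule F V, (∀ g, br ρ g ≤ U) → U = ⊤)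
    {g : T} (hg : g ≠ 1) : ρ g ≠ 1 := by
  intro h
  have hn : (KU ρ (⊥ : Submodule F V)).Normal := by
    constructor
    intro n hn g
    rw [mem_KU] at hn ⊢
    rw [br_conj]
    rw [le_bot_iff] at hn ⊢
    rw [hn, Submodule.map_bot]
  have hgm : g ∈ KU ρ (⊥ : Submodule F V) := by
    rw [mem_KU, br_le_iff]
    intro v
    rw [h, Module.End.one_apply, sub_self]
    exact Submodule.zero_mem _
  rcases hn.eq_bot_or_eq_top with h1 | h1
  · rw [h1] at hgm
    exact hg (mem_bot.1 hgm)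
  · have h2 := hV ⊥ fun g => by
      have h3 : g ∈ KU ρ (⊥ : Submodule F V) := by rw [h1]; exact mem_top g
      exact h3
    exact bot_ne_top h2

theorem norm_map {T : Type*} [Group T] {H : Subgroup T} {S : Subgroup H} (hn : S.Normal) :
    ∀ y ∈ H, ∀ s ∈ S.map H.subtype, y * s * y⁻¹ ∈ S.map H.subtype := by
  rintro y hy _ ⟨s, hs, rfl⟩
  have h1 := hn.conj_mem s hs (⟨y, hy⟩ : H)
  exact ⟨_, h1, rfl⟩

variable {F : Type} [Field F] [Fintype F] [CharP F 3]

/-- **`Spr` from the overgroups of the torus element.** -/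
theorem spr_of_over [IsSimpleGroup ↥(chevG2.group F)] (hna : ∃ x y : ↥(chevG2.group F), x * y ≠ y * x) {q a : ℕ}
    (hq : Fintype.card F = q) (hqa : q = 3 ^ a) (hq9 : 9 ≤ q) {x : ↥(chevG2.group F)}
    (hx : orderOf x = q ^ 2 - q + 1) (hO : Over x (fun g => g = .psu 3 q)) : Spr ↥(chevG2.group F) := by
  classical
  have hfin : Finite ↥(chevG2.group F) := inferInstance
  have hqq : q ≤ q ^ 2 := by nlinarith
  set n := q ^ 2 - q + 1 with hn
  have hn1 : n ≠ 1 := by
    have : 2 * q ≤ q ^ 2 := by nlinarith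
    omega
  have ha0 : a ≠ 0 := by
    rintro rfl
    rw [pow_zero] at hqa
    omega
  have h3q : 3 ∣ q := by rw [hqa]; exact dvd_pow_self 3 ha0
  obtain ⟨r, hr, hrn⟩ := Nat.exists_prime_and_dvd hn1
  have ir : Fact r.Prime := ⟨hr⟩
  have hr3 : r ≠ 3 := by
    rintro rfl
    have h1 : 3 ∣ q ^ 2 - q := Nat.dvd_sub (dvd_pow h3q (by norm_num)) h3q
    have h2 : 3 ∣ 1 := (Nat.dvd_add_right h1).1 hrn
    omega
  have hr2 : r ≠ 2 := by
    rintro rfl
    have h1 : 2 ∣ q ^ 2 - q := by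
      rw [sq, show q * q - q = q * (q - 1) by rw [Nat.mul_sub, mul_one]]
      exact (Nat.even_mul_pred_self q).two_dvd
    have h2 : 2 ∣ 1 := (Nat.dvd_add_right h1).1 hrn
    omega
  have hrq : ¬ r ∣ q := by
    intro h
    rw [hqa] at h
    exact hr3 ((Nat.prime_dvd_prime_iff_eq hr Nat.prime_three).1 (hr.dvd_of_dvd_pow h))
  have h6 := ord_six (r := r) (q := q) (by omega) hrn hr2 hr3
  -- the Sylow subgroup
  set k := n.factorization r with hk
  have hn0 : n ≠ 0 := by omega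
  set x₁ := x ^ (n / r ^ k) with hx1
  have hkd : r ^ k ∣ n := Nat.ordProj_dvd n r
  have hox1 : orderOf x₁ = r ^ k := by
    rw [hx1, orderOf_pow_of_dvd ?_ ?_, hx, Nat.div_div_self hkd hn0]
    · exact (Nat.div_pos (Nat.le_of_dvd (by omega) hkd) (pow_pos hr.pos k)).ne'
    · rw [hx]
      exact Nat.div_dvd_of_dvd hkd
  have hk0 : k ≠ 0 := (hr.factorization_pos_of_dvd hn0 hrn).ne'
  have hx11 : x₁ ≠ 1 := by
    intro h
    rw [h, orderOf_one] at hox1
    exact absurd hox1.symm (Nat.one_lt_pow hk0 hr.one_lt).ne'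
  have hcard : Nat.card ↥(chevG2.group F) = n * (q ^ 6 * (q ^ 2 - 1) * (q ^ 2 - 1) * (q ^ 2 + q + 1)) := by
    rw [Cfsg.Agent.S1059.result hq]
    obtain ⟨m, rfl⟩ : ∃ m, q = m + 9 := ⟨q - 9, by omega⟩
    have e1 : (m + 9) ^ 2 - 1 = (m + 8) * (m + 10) := by
      apply Nat.sub_eq_of_eq_add; ring
    have e2 : (m + 9) ^ 2 - (m + 9) = (m + 9) * (m + 8) := by
      apply Nat.sub_eq_of_eq_add; ring
    have e3 : (m + 9) ^ 6 - 1 = (m + 8) * (m + 10) * ((m + 9) * (m + 8) + 1) * ((m + 9) ^ 2 + (m + 9) + 1) := by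
      apply Nat.sub_eq_of_eq_add; ring
    rw [hn, e1, e2, e3]
    ring
  have hfac : (Nat.card ↥(chevG2.group F)).factorization r = k := by
    have h7 : ¬ r ∣ q ^ 6 * (q ^ 2 - 1) * (q ^ 2 - 1) * (q ^ 2 + q + 1) := by
      intro h
      have hA : ¬ r ∣ q ^ 2 - 1 := by
        intro h
        rcases h6 2 (by norm_num) h with h | h <;> omega
      have hB : ¬ r ∣ q ^ 2 + q + 1 := by
        intro h
        have h8 : r ∣ q ^ 3 - 1 := by
          refine h.trans ⟨q - 1, ?_⟩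
          obtain ⟨m, rfl⟩ : ∃ m, q = m + 9 := ⟨q - 9, by omega⟩
          have : m + 9 - 1 = m + 8 := by omega
          rw [this]
          apply Nat.sub_eq_of_eq_add
          ring
        rcases h6 3 (by norm_num) h8 with h | h <;> omega
      rcases (Nat.Prime.dvd_mul hr).1 h with h | h
      · rcases (Nat.Prime.dvd_mul hr).1 h with h | h
        · rcases (Nat.Prime.dvd_mul hr).1 h with h | h
          · exact hrq (hr.dvd_of_dvd_pow h)
          · exact hA h
        · exact hA h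
      · exact hB h
    rw [hcard, Nat.factorization_mul hn0 (by
      intro h0
      exact h7 (by rw [h0]; exact dvd_zero r))]
    rw [Finsupp.add_apply, Nat.factorization_eq_zero_of_not_dvd h7, add_zero]
  let R : Sylow r ↥(chevG2.group F) := Sylow.ofCard (zpowers x₁) (by rw [Nat.card_zpowers, hox1, hfac])
  have hR : (R : Subgroup ↥(chevG2.group F)) = zpowers x₁ := rfl
  have hx1x : x₁ ∈ zpowers x := by
    rw [hx1]
    exact pow_mem (mem_zpowers x) _
  have hx1p : x₁ ^ r ^ k = 1 := by rw [← hox1]; exact pow_orderOf_eq_one x₁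
  have hcF : Nat.card F = q := by rw [Nat.card_eq_fintype_card, hq]
  have hV7 : Module.finrank F (Fin 7 → F) = 7 := by simp
  have d1 : Module.finrank F (br (rW F) x₁) = 6 :=
    finrank_br (rW F) hV7 hx1p (ρ_ne_one (rW F) top_rW hx11) (by rw [hcF]; exact h6) (by rw [hcF]; exact hrq)
  have d2 : Module.finrank F (br (rQ F) x₁) = 6 :=
    finrank_br (rQ F) hV7 hx1p (ρ_ne_one (rQ F) top_rQ hx11) (by rw [hcF]; exact h6) (by rw [hcF]; exact hrq)
  refine spr_of_mods (x := x) hna (rW F) (rQ F) hR (St_ne_top hna (rW F) top_rW (by rw [d1, hV7]))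
    (St_ne_top hna (rQ F) top_rQ (by rw [d2, hV7])) ?_
  intro H hxH hH
  rcases hO H hxH hH with h | ⟨S, hSn, hSs, -, -, hxS, g, rfl, hg⟩
  · left
    intro y hy
    exact mem_St_of_conj _ (conj_mem_of_norm hx1x (h hy))
  · -- the unitary group
    set S' : Subgroup ↥(chevG2.group F) := S.map H.subtype with hS'
    have eS : S ≃* S' := S.equivMapOfInjective H.subtype H.subtype_injective
    have iS' : IsSimpleGroup S' := eS.symm.isSimpleGroup
    have hreal : Cfsg.Agent.OrdDiv.Real (.psu 3 q) S' := by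
      obtain ⟨F₁, i1, i2, hF, ⟨e⟩⟩ := hg.real
      exact ⟨F₁, i1, i2, hF, ⟨eS.symm.trans e⟩⟩
    have hxS' : x ∈ S' := ⟨⟨x, hxH⟩, hxS, rfl⟩
    have hx1S' : x₁ ∈ S' := (zpowers_le.2 hxS') hx1x
    have hnorm : ∀ y ∈ H, ∀ s ∈ S', y * s * y⁻¹ ∈ S' := norm_map hSn
    rcases uni hqa hq9 hreal with ⟨U, hU6, hU⟩ | ⟨U, hU6, hU⟩
    · left
      intro y hy
      exact norm_le (rW F) hx1S' hU (by rw [d1]; exact hU6) (hnorm y hy)
    · right
      intro y hy
      exact norm_le (rQ F) hx1S' hU (by rw [d2]; exact hU6) (hnorm y hy)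

end

end Cfsg.Agent.H463.G2
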