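import Cfsg.Agent.H463.G2.GenU
import Cfsg.Agent.H463.G2.Asm

/-!
# The commutator space of `SU₃(q)` (helper463, S3938, `G₂(3^a)`)

`three` : if a root group of `SUG σ` has (up to conjugation) a commutator space of dimension at most 2 then `SUG σ` has one of
dimension at most 6.
-/

set_option autoImplicit false
set_option linter.unusedSectionVars false

namespace Cfsg.Agent.H463.G2

open Matrix Subgroup
open Cfsg.Agent
open Cfsg.Agent.UThreeGen.MatGroup
open Cfsg.Agent.HKS.EndU (tor tmat tor_val tor_mem act tor_emb)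
open Cfsg.Agent.GTwoOdd (M2 SL2)
open Cfsg.Agent.ChevalleyStructure.SL2Hom (up lo mem_closure_SL2)

section

variable {F₁ : Type*} [Field F₁] {σ : F₁ →+* F₁} [hσ : Fact (∀ x, σ (σ x) = x)]
variable {F₀ : Type*} [Field F₀] (ι : F₀ →+* F₁) (hι : ∀ x, σ (ι x) = ι x) {e : F₁} (he : e ≠ 0) (hσe : σ e = -e)
variable {T : Type*} [Group T] {F : Type*} [Field F] {V : Type*} [AddCommGroup V] [Module F V] [FiniteDimensional F V]

theorem lo_eq (t : F₀) : (lo t : SL2 F₀) = ws * up (-t) * ws⁻¹ := by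
  rw [eq_mul_inv_iff_mul_eq]
  apply Subtype.ext
  have h : (lo t : SL2 F₀).1 * (ws : SL2 F₀).1 = (ws : SL2 F₀).1 * (up (-t) : SL2 F₀).1 := by
    ext i j
    fin_cases i <;> fin_cases j <;> simp [ws, up, lo, Matrix.mul_apply, Fin.sum_univ_two]
  exact h

theorem br_conj_le (ρ : T →* (V →ₗ[F] V)) {g h : T} {D : Submodule F V} (hD : br ρ h ≤ D) :
    br ρ (g * h * g⁻¹) ≤ D.map (ρ g) := by
  rw [br_conj]
  exact Submodule.map_mono hD

theorem finrank_map_le' (ρ : T →* (V →ₗ[F] V)) (g : T) {D : Submodule F V} {n : ℕ} (hD : Module.finrank F D ≤ n) :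
    Module.finrank F (D.map (ρ g)) ≤ n :=
  (Submodule.finrank_map_le (ρ g) D).trans hD

include hσ in
theorem three (hfix : ∀ x, σ x = x → ∃ y, ι y = x) (h2 : (2 : F₁) ≠ 0) (ρ : T →* (V →ₗ[F] V)) {D : Submodule F V}
    (hD : Module.finrank F D ≤ 2) (β : SUG σ →* T) {g : T}
    (h : ∀ t : F₀, br ρ (g * β (al ι hι he hσe (up t)) * g⁻¹) ≤ D) :
    ∃ U : Submodule F V, Module.finrank F U ≤ 6 ∧ ∀ (k : SUG σ) (x : HG σ), br ρ (β (k * emb σ x * k⁻¹)) ≤ U := by
  set D' := D.map (ρ g⁻¹) with hD'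
  have hD2 : Module.finrank F D' ≤ 2 := finrank_map_le' ρ _ hD
  have h0 : ∀ t : F₀, br ρ (β (al ι hι he hσe (up t))) ≤ D' := by
    intro t
    have h1 := br_conj_le ρ (g := g⁻¹) (h t)
    have h3 : g⁻¹ * (g * β (al ι hι he hσe (up t)) * g⁻¹) * g⁻¹⁻¹ = β (al ι hι he hσe (up t)) := by group
    rwa [h3] at h1
  set w₁ : SUG σ := al ι hι he hσe ws with hw₁
  set w₂ : SUG σ := emb σ (x1 σ h2) * al ι hι he hσe ws with hw₂
  set U := D' ⊔ D'.map (ρ (β w₁)) ⊔ D'.map (ρ (β w₂)) with hU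
  refine ⟨U, ?_, ?_⟩
  · have e1 := Submodule.finrank_add_le_finrank_add_finrank (D' ⊔ D'.map (ρ (β w₁))) (D'.map (ρ (β w₂)))
    have e2 := Submodule.finrank_add_le_finrank_add_finrank D' (D'.map (ρ (β w₁)))
    have e3 := finrank_map_le' ρ (β w₁) hD2
    have e4 := finrank_map_le' ρ (β w₂) hD2
    rw [hU]
    omega
  · set K : Subgroup (SUG σ) := (KU ρ U).comap β with hK
    have hmemK : ∀ k : SUG σ, br ρ (β k) ≤ U → k ∈ K := fun k hk => hk
    have hup : ∀ t : F₀, al ι hι he hσe (up t) ∈ K := fun t =>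
      hmemK _ ((h0 t).trans (le_sup_left.trans le_sup_left))
    have hlo : ∀ t : F₀, al ι hι he hσe (lo t) ∈ K := by
      intro t
      apply hmemK
      rw [lo_eq, map_mul, map_mul, map_inv, map_mul, map_mul, map_inv]
      exact (br_conj_le ρ (h0 (-t))).trans (le_sup_right.trans le_sup_left)
    have hA : ∀ a, al ι hι he hσe a ∈ K := by
      intro a
      refine Subgroup.closure_induction (p := fun a _ => al ι hι he hσe a ∈ K) ?_ ?_ ?_ ?_ (mem_closure_SL2 a)
      · rintro _ (⟨t, rfl⟩ | ⟨t, rfl⟩)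
        · exact hup t
        · exact hlo t
      · rw [map_one]
        exact K.one_mem
      · intro x y _ _ hx hy
        rw [map_mul]
        exact K.mul_mem hx hy
      · intro x _ hx
        rw [map_inv]
        exact K.inv_mem hx
    have hP : P ι hι he hσe K (x1 σ h2) := by
      intro t
      apply hmemK
      have h4 : emb σ (x1 σ h2) * al ι hι he hσe (lo t) * (emb σ (x1 σ h2))⁻¹ =
          w₂ * al ι hι he hσe (up (-t)) * w₂⁻¹ := by
        rw [lo_eq, map_mul, map_mul, map_inv, hw₂]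
        group
      rw [h4, map_mul, map_mul, map_inv]
      exact (br_conj_le ρ (h0 (-t))).trans le_sup_right
    intro k x
    exact gen3 ι hι he hσe hfix hA h2 hP k x

/-- from the unipotent group to the simple group -/
theorem le_KU (ρ : T →* (V →ₗ[F] V)) {U : Submodule F V} {S : Subgroup T} [IsSimpleGroup S] (γ : SUG σ →* S)
    (hγ : Function.Surjective γ) {x : HG σ} (hx : γ (emb σ x) ≠ 1)
    (h : ∀ k : SUG σ, br ρ (γ (k * emb σ x * k⁻¹) : T) ≤ U) : S ≤ KU ρ U := by
  have h1 : Subgroup.normalClosure {γ (emb σ x)} = (⊤ : Subgroup S) := by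
    rcases (Subgroup.normalClosure_normal (s := {γ (emb σ x)})).eq_bot_or_eq_top with h | h
    · exfalso
      apply hx
      have h3 := Subgroup.subset_normalClosure (s := {γ (emb σ x)}) (Set.mem_singleton _)
      rw [h] at h3
      exact Subgroup.mem_bot.1 h3
    · exact h
  have h2 : Subgroup.normalClosure {γ (emb σ x)} ≤ (KU ρ U).comap S.subtype := by
    rw [Subgroup.normalClosure, Subgroup.closure_le]
    intro s hs
    rw [Group.mem_conjugatesOfSet_iff] at hs
    obtain ⟨a, ha, hs⟩ := hs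
    rw [Set.mem_singleton_iff] at ha
    subst ha
    obtain ⟨c, rfl⟩ := isConj_iff.1 hs
    obtain ⟨k, rfl⟩ := hγ c
    have h3 := h k
    rw [map_mul, map_mul, map_inv] at h3
    exact h3
  rw [h1] at h2
  intro s hs
  exact h2 (mem_top (⟨s, hs⟩ : S))

end

end Cfsg.Agent.H463.G2
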