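import Cfsg.Agent.H463.G2.Three
import Cfsg.Agent.H463.G2.Inv
import Cfsg.Agent.H463.G2.Mod
import Cfsg.Agent.H436.Names

/-!
# The subgroups `U₃(q)` of `G₂(q)`, `q = 3^a ≥ 9` (helper463, S3938)

`uni` : a subgroup `S` of `G₂(q)` isomorphic to `PSU₃(q)` has `dim [V, S] ≤ 6` on one of the two 7-dimensional modules `rW`, `rQ`.
-/

set_option autoImplicit false
set_option linter.unusedSectionVars false

namespace Cfsg.Agent.H463.G2

open Matrix Subgroup Cfsg Cfsg.Lie
open Cfsg.Agent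
open Cfsg.Agent.UThreeGen.MatGroup
open Cfsg.Agent.HKS.EndU (tor tmat tor_val tor_mem act tor_emb)
open Cfsg.Agent.GTwoOdd (M2 SL2)
open Cfsg.Agent.ChevalleyStructure.SL2Hom (up lo mem_closure_SL2)
open Cfsg.Agent.ClassificationK.GTwoChev (mat ph11 ph7)

section

variable {F₁ : Type*} [Field F₁] {σ : F₁ →+* F₁} [hσ : Fact (∀ x, σ (σ x) = x)]
variable {F₀ : Type*} [Field F₀] (ι : F₀ →+* F₁) (hι : ∀ x, σ (ι x) = ι x) {e : F₁} (he : e ≠ 0) (hσe : σ e = -e)

/-- a central torus element -/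
theorem tor_center (h2 : (2 : F₁) ≠ 0) {l : F₁ˣ} (h : tor σ l ∈ Subgroup.center (SUG σ)) :
    (l : F₁) ^ 2 = σ (l : F₁) := by
  have h1 := tor_emb (σ := σ) l (x1 σ h2)
  rw [← Subgroup.mem_center_iff.1 h (emb σ (x1 σ h2))] at h1
  have h3 := emb_injective (mul_right_cancel h1)
  have h4 := congrArg HG.a h3
  have h5 : σ (l : F₁) ≠ 0 := (map_ne_zero σ).mpr l.ne_zero
  simp only [x1, act, mul_one] at h4
  rw [eq_div_iff h5, one_mul] at h4
  exact h4.symm

include hσ in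
theorem al_neg : al ι hι he hσe (-1) = tor σ (-1) := by
  apply Subtype.ext
  apply Subtype.ext
  rw [al_val, tor_val]
  ext i j
  fin_cases i <;> fin_cases j <;> simp [am, tmat]

include hσ in
theorem tor_al {l : F₁ˣ} (hl : (l : F₁) * σ (l : F₁) = 1) (a : SL2 F₀) :
    al ι hι he hσe a * tor σ l = tor σ l * al ι hι he hσe a := by
  have h1 : (l : F₁) ≠ 0 := l.ne_zero
  have h2 : σ (l : F₁) = (l : F₁)⁻¹ := eq_inv_of_mul_eq_one_left (by rw [mul_comm]; exact hl)
  apply Subtype.ext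
  apply Subtype.ext
  rw [coe_mul_SUG, coe_mul_SUG, al_val, tor_val]
  ext i j
  fin_cases i <;> fin_cases j <;> simp [am, tmat, Matrix.mul_apply, Fin.sum_univ_three, h2] <;> ring

end

section

variable {F : Type*} [Field F] [Fintype F] [CharP F 3]

theorem uni {q a : ℕ} (hqa : q = 3 ^ a) (hq9 : 9 ≤ q) {S : Subgroup ↥(chevG2.group F)} [IsSimpleGroup S]
    (hS : Cfsg.Agent.OrdDiv.Real (.psu 3 q) S) :
    (∃ U : Submodule F (Fin 7 → F), Module.finrank F U ≤ 6 ∧ S ≤ KU (rW F) U) ∨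
      (∃ U : Submodule F (Fin 7 → F), Module.finrank F U ≤ 6 ∧ S ≤ KU (rQ F) U) := by
  classical
  obtain ⟨F₁, _, _, hF, ⟨e'⟩⟩ := hS
  have i3 : Fact (Nat.Prime 3) := ⟨Nat.prime_three⟩
  have : CharP F₁ 3 := charP_of_card_eq_prime_pow (p := 3) (f := a * 2) (by rw [hF, hqa, pow_mul])
  let σ : F₁ →+* F₁ := (LieClassical.HermBasic.conj hF : F₁ →+* F₁)
  have hs : ∀ x, σ x = x ^ q := fun x => rfl
  have iσ : Fact (∀ x, σ (σ x) = x) := ⟨fun x => LieClassical.HermBasic.pow_q_pow_q hF x⟩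
  obtain ⟨π, hπ, hker⟩ := Cfsg.Agent.H212.U3.Model.exists_pi (σ := σ) (LieClassical.HermBasic.two_le hF) hs
    (by rw [Nat.card_eq_fintype_card, hF])
  have h2 : (2 : F₁) ≠ 0 := two_ne F₁
  have h2' : (2 : F) ≠ 0 := two_ne F
  -- the fixed field
  let F₀ : Subfield F₁ := RingHom.eqLocusField σ (RingHom.id F₁)
  let ι : F₀ →+* F₁ := F₀.subtype
  have hι : ∀ x, σ (ι x) = ι x := fun x => x.2
  have hfix : ∀ x, σ x = x → ∃ y, ι y = x := fun x hx => ⟨⟨x, hx⟩, rfl⟩
  have : CharP F₀ 3 := RingHom.charP ι ι.injective 3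
  have h20 : (2 : F₀) ≠ 0 := two_ne F₀
  obtain ⟨c, hc⟩ := LieClassical.HermBasic.exists_not_fixed hF
  set e : F₁ := c - σ c with he0
  have he : e ≠ 0 := by
    rw [he0, sub_ne_zero]
    exact Ne.symm hc
  have hσe : σ e = -e := by
    rw [he0, map_sub, iσ.out, neg_sub]
  -- the generator
  obtain ⟨z, hz⟩ := IsCyclic.exists_generator (α := F₁ˣ)
  have hoz : orderOf z = q ^ 2 - 1 := by
    rw [orderOf_eq_card_of_forall_mem_zpowers hz, Nat.card_units, Nat.card_eq_fintype_card, hF]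
  have hzq : z ^ (q ^ 2 - 1) = 1 := by rw [← hoz]; exact pow_orderOf_eq_one z
  have hq2 : q ^ 2 - 1 = (q - 1) * (q + 1) := by
    obtain ⟨k, rfl⟩ : ∃ k, q = k + 9 := ⟨q - 9, by omega⟩
    have : k + 9 - 1 = k + 8 := by omega
    rw [this]
    apply Nat.sub_eq_of_eq_add
    ring
  set ζ : F₁ˣ := z ^ (q - 1) with hζ
  have hζo : orderOf ζ = q + 1 := by
    rw [hζ, orderOf_pow_of_dvd (by omega) (by rw [hoz, hq2]; exact dvd_mul_right _ _), hoz, hq2,
      Nat.mul_div_cancel_left _ (by omega)]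
  have hζσ : (ζ : F₁) * σ (ζ : F₁) = 1 := by
    rw [hs, ← pow_succ', ← hζo, ← Units.val_pow_eq_pow_val, pow_orderOf_eq_one, Units.val_one]
  -- the homomorphisms
  set γ : SUG σ →* S := e'.symm.toMonoidHom.comp π with hγ
  have hγs : Function.Surjective γ := e'.symm.surjective.comp hπ
  have hγk : ∀ g, γ g = 1 ↔ g ∈ Subgroup.center (SUG σ) := by
    intro g
    rw [← hker]
    change e'.symm (π g) = 1 ↔ _
    exact MulEquiv.map_eq_one_iff _
  set β : SUG σ →* ↥(chevG2.group F) := S.subtype.comp γ with hβ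
  have hβ1 : ∀ g, β g = 1 ↔ g ∈ Subgroup.center (SUG σ) := by
    intro g
    rw [← hγk]
    change ((γ g : S) : ↥(chevG2.group F)) = 1 ↔ _
    rw [OneMemClass.coe_eq_one]
  have hneg : (β.comp (al ι hι he hσe)) (-1) ≠ 1 := by
    intro h
    have h3 := (hβ1 _).1 h
    rw [al_neg] at h3
    have h4 := tor_center h2 h3
    rw [Units.val_neg, Units.val_one, map_neg, map_one] at h4
    apply h2
    linear_combination h4
  have hy4 : (β (tor σ ζ)) ^ 4 ≠ 1 := by
    intro h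
    rw [← map_pow, ← map_pow] at h
    have h3 := tor_center h2 ((hβ1 _).1 h)
    have h5 : (ζ : F₁) ^ 12 = 1 := by
      have h6 : ((ζ ^ 4 : F₁ˣ) : F₁) = (ζ : F₁) ^ 4 := Units.val_pow_eq_pow_val _ _
      rw [h6, map_pow] at h3
      calc (ζ : F₁) ^ 12 = ((ζ : F₁) ^ 4) ^ 2 * (ζ : F₁) ^ 4 := by ring
        _ = σ (ζ : F₁) ^ 4 * (ζ : F₁) ^ 4 := by rw [h3]
        _ = ((ζ : F₁) * σ (ζ : F₁)) ^ 4 := by ring
        _ = 1 := by rw [hζσ, one_pow]
    have h7 : ζ ^ 12 = 1 := by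
      apply Units.ext
      rw [Units.val_pow_eq_pow_val, h5, Units.val_one]
    have h8 := orderOf_dvd_of_pow_eq_one h7
    rw [hζo] at h8
    have h9 : q + 1 ≤ 12 := Nat.le_of_dvd (by norm_num) h8
    have h10 : q = 11 := by
      rcases (by omega : q = 9 ∨ q = 10 ∨ q = 11) with h | h | h
      · rw [h] at h8
        omega
      · rw [h] at h8
        omega
      · exact h
    rw [h10] at hqa
    have h11 : ¬ (3 ∣ 11) := by norm_num
    rcases Nat.eq_zero_or_pos a with h0 | h0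
    · rw [h0] at hqa; omega
    · exact h11 (by rw [hqa]; exact dvd_pow_self 3 (by omega))
  have hcomm : ∀ b, (β.comp (al ι hι he hσe)) b * β (tor σ ζ) = β (tor σ ζ) * (β.comp (al ι hι he hσe)) b := by
    intro b
    change β (al ι hι he hσe b) * β (tor σ ζ) = β (tor σ ζ) * β (al ι hι he hσe b)
    rw [← map_mul, tor_al ι hι he hσe hζσ, map_mul]
  have hss : ∃ s : F₀, s ≠ 0 ∧ s ^ 2 ≠ 1 := by
    refine ⟨⟨((z ^ (q + 1) : F₁ˣ) : F₁), ?_⟩, ?_, ?_⟩
    · change ((z ^ (q + 1) : F₁ˣ) : F₁) ^ q = ((z ^ (q + 1) : F₁ˣ) : F₁)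
      rw [← Units.val_pow_eq_pow_val, ← pow_mul]
      congr 1
      have h12 : (q + 1) * q = (q ^ 2 - 1) + (q + 1) := by
        rw [hq2]
        obtain ⟨k, rfl⟩ : ∃ k, q = k + 9 := ⟨q - 9, by omega⟩
        have : k + 9 - 1 = k + 8 := by omega
        rw [this]
        ring
      rw [h12, pow_add, hzq, one_mul]
    · intro h
      have h13 := congrArg (fun x : F₀ => (x : F₁)) h
      exact (z ^ (q + 1)).ne_zero h13
    · intro h
      have h13 : (((z ^ (q + 1) : F₁ˣ) : F₁)) ^ 2 = 1 := congrArg (fun x : F₀ => (x : F₁)) h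
      have h14 : z ^ ((q + 1) * 2) = 1 := by
        apply Units.ext
        rw [pow_mul, Units.val_pow_eq_pow_val, h13, Units.val_one]
      have h15 := orderOf_dvd_of_pow_eq_one h14
      rw [hoz, hq2, mul_comm (q - 1) (q + 1)] at h15
      have h16 := Nat.dvd_of_mul_dvd_mul_left (by omega) h15
      have h17 := Nat.le_of_dvd (by norm_num) h16
      omega
  obtain ⟨g, hg⟩ := root_conj (p := 3) h2' h20 hss (β.comp (al ι hι he hσe)) hneg hcomm hy4
  have hx1 : γ (emb σ (x1 σ h2)) ≠ 1 := by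
    intro h
    have h18 := (hγk _).1 h
    have h19 := tor_emb (σ := σ) (-1) (x1 σ h2)
    rw [Subgroup.mem_center_iff.1 h18] at h19
    have h20 := emb_injective (mul_right_cancel h19)
    have h21 := congrArg HG.a h20
    simp only [x1, act, mul_one, Units.val_neg, Units.val_one, map_neg, map_one] at h21
    apply h2
    norm_num at h21
    linear_combination h21
  rcases hg with hg | hg
  · left
    obtain ⟨U, hU6, hU⟩ := three ι hι he hσe hfix h2 (rW F) (finrank_D2 2 3) β (g := g) (fun t => by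
      obtain ⟨s, hs⟩ := hg t
      rw [show g * β (al ι hι he hσe (up t)) * g⁻¹ = ph11 F (up s) from hs]
      exact br_rW s)
    exact ⟨U, hU6, le_KU (rW F) γ hγs hx1 fun k => hU k _⟩
  · right
    obtain ⟨U, hU6, hU⟩ := three ι hι he hσe hfix h2 (rQ F) (finrank_D2 2 4) β (g := g) (fun t => by
      obtain ⟨s, hs⟩ := hg t
      rw [show g * β (al ι hι he hσe (up t)) * g⁻¹ = ph7 F (up s) from hs]
      exact br_rQ s)
    exact ⟨U, hU6, le_KU (rQ F) γ hγs hx1 fun k => hU k _⟩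

end

end Cfsg.Agent.H463.G2
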